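import Cfsg.Agent.H67.OdmSym

/-!
# All root elements (TEAM ODDM, S4785, helper67)

`hall` : if the transvections in `H` act irreducibly, `H` contains all `diag(-1,-1,1,…)` and one elementary transvection,
then `H` contains an elementary transvection in every position.
-/

set_option autoImplicit false
set_option linter.unusedSectionVars false
set_option linter.unusedVariables false

namespace Cfsg.Agent.H67.Odm

open Matrix

universe u v

variable {ι : Type v} [Fintype ι] [DecidableEq ι] {F : Type u} [Field F]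
variable {H : Subgroup (GL ι F)} {i j l : ι} {a b φ ψ : ι → F}

/-- the transvection `1 + a ⊗ φ` lies in `H` -/
def Tr (H : Subgroup (GL ι F)) (a φ : ι → F) : Prop := φ ⬝ᵥ a = 0 ∧ Mm H (1 + Matrix.vecMulVec a φ)

theorem vmv_mul (a φ b ψ : ι → F) : Matrix.vecMulVec a φ * Matrix.vecMulVec b ψ = (φ ⬝ᵥ b) • Matrix.vecMulVec a ψ := by
  ext r s
  rw [Matrix.mul_apply, Matrix.smul_apply, Matrix.vecMulVec_apply, dotProduct, smul_eq_mul, Finset.sum_mul]
  refine Finset.sum_congr rfl fun k _ => ?_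
  rw [Matrix.vecMulVec_apply, Matrix.vecMulVec_apply]
  ring

theorem Tr.add (h : Tr H a φ) (h' : Tr H b φ) : Tr H (a + b) φ := by
  refine ⟨by rw [dotProduct_add, h.1, h'.1, add_zero], ?_⟩
  have h1 := h.2.mul h'.2
  have h2 : (1 + Matrix.vecMulVec a φ) * (1 + Matrix.vecMulVec b φ) = 1 + Matrix.vecMulVec (a + b) φ := by
    rw [mul_add, add_mul, add_mul, one_mul, one_mul, mul_one, vmv_mul, h'.1, zero_smul, Matrix.add_vecMulVec]
    abel
  rwa [h2] at h1

theorem Tr.neg (h : Tr H a φ) : Tr H (-a) φ := by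
  refine ⟨by rw [dotProduct_neg, h.1, neg_zero], h.2.inv_of ?_⟩
  rw [mul_add, add_mul, add_mul, one_mul, one_mul, mul_one, vmv_mul, dotProduct_neg, h.1, neg_zero, zero_smul,
    Matrix.neg_vecMulVec]
  abel

theorem Tr.sub (h : Tr H a φ) (h' : Tr H b φ) : Tr H (a - b) φ := by
  rw [sub_eq_add_neg]; exact h.add h'.neg

theorem Tr.conj (h : Tr H a φ) (h' : Tr H b ψ) : Tr H (a + (ψ ⬝ᵥ a) • b) (φ - (φ ⬝ᵥ b) • ψ) := by
  constructor
  · rw [sub_dotProduct, dotProduct_add, dotProduct_add, smul_dotProduct, smul_dotProduct, dotProduct_smul,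
      dotProduct_smul, h.1, h'.1]
    simp only [smul_eq_mul]
    ring
  · have h1 := (h'.2.mul h.2).mul h'.neg.2
    have h2 : (1 + Matrix.vecMulVec b ψ) * (1 + Matrix.vecMulVec a φ) * (1 + Matrix.vecMulVec (-b) ψ) =
        1 + Matrix.vecMulVec (a + (ψ ⬝ᵥ a) • b) (φ - (φ ⬝ᵥ b) • ψ) := by
      have e1 : (1 + Matrix.vecMulVec b ψ) * (1 + Matrix.vecMulVec a φ) * (1 + Matrix.vecMulVec (-b) ψ) =
          1 + Matrix.vecMulVec a φ + Matrix.vecMulVec b ψ * Matrix.vecMulVec a φ -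
            Matrix.vecMulVec a φ * Matrix.vecMulVec b ψ -
            Matrix.vecMulVec b ψ * Matrix.vecMulVec a φ * Matrix.vecMulVec b ψ -
            Matrix.vecMulVec b ψ * Matrix.vecMulVec b ψ := by
        rw [Matrix.neg_vecMulVec]
        noncomm_ring
      rw [e1, vmv_mul b ψ a φ, Matrix.smul_mul, vmv_mul, vmv_mul, vmv_mul, h'.1, zero_smul]
      ext r s
      simp only [Matrix.add_apply, Matrix.sub_apply, Matrix.zero_apply, Matrix.smul_apply, Matrix.vecMulVec_apply,
        Pi.add_apply, Pi.sub_apply, Pi.smul_apply, smul_eq_mul]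
      ring
    rwa [h2] at h1

theorem transvection_eq (i j : ι) (c : F) : Matrix.transvection i j c =
    1 + Matrix.vecMulVec (c • (Pi.single i 1 : ι → F)) (Pi.single j 1) := by
  rw [Matrix.transvection]
  congr 1
  ext r s
  rw [Matrix.vecMulVec_apply, Pi.smul_apply, smul_eq_mul, Matrix.single_apply, Pi.single_apply, Pi.single_apply]
  rcases eq_or_ne i r with rfl | h1
  · rcases eq_or_ne j s with rfl | h2
    · simp
    · simp [h2, h2.symm]
  · simp [h1, h1.symm]

theorem tr_iff (hij : i ≠ j) {c : F} : Mm H (Matrix.transvection i j c) ↔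
    Tr H (c • (Pi.single i 1 : ι → F)) (Pi.single j 1) := by
  rw [transvection_eq]
  refine ⟨fun h => ⟨?_, h⟩, fun h => h.2⟩
  rw [single_dotProduct, one_mul, Pi.smul_apply, Pi.single_eq_of_ne hij.symm, smul_zero]

/-- edges -/
def Ed (H : Subgroup (GL ι F)) (i j : ι) : Prop := i ≠ j ∧ ∃ c : F, c ≠ 0 ∧ Mm H (Matrix.transvection i j c)

theorem Ed.trans (h : Ed H i j) (h' : Ed H j l) (hil : i ≠ l) : Ed H i l := by
  obtain ⟨hij, c, hc, hx⟩ := h
  obtain ⟨hjl, d, hd, hy⟩ := h'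
  refine ⟨hil, d * c, mul_ne_zero hd hc, ?_⟩
  rw [tr_iff hij] at hx
  rw [tr_iff hjl] at hy
  rw [tr_iff hil]
  have h1 := hy.conj hx
  have e1 : (Pi.single j (1 : F)) ⬝ᵥ (d • (Pi.single j 1 : ι → F)) = d := by
    rw [single_dotProduct, one_mul, Pi.smul_apply, Pi.single_eq_same, smul_eq_mul, mul_one]
  have e2 : (Pi.single l (1 : F)) ⬝ᵥ (c • (Pi.single i 1 : ι → F)) = 0 := by
    rw [single_dotProduct, one_mul, Pi.smul_apply, Pi.single_eq_of_ne hil.symm, smul_zero]
  rw [e1, e2, zero_smul, sub_zero] at h1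
  have h3 := h1.sub hy
  rwa [add_sub_cancel_left, smul_smul] at h3

/-- no proper subspace is invariant under the transvections in `H` -/
def Irr (H : Subgroup (GL ι F)) : Prop := ∀ W : Submodule F (ι → F), W ≠ ⊥ → W ≠ ⊤ →
  ∃ a φ : ι → F, Tr H a φ ∧ ∃ w ∈ W, (φ ⬝ᵥ w) • a ∉ W

theorem exists_crossing (hirr : Irr H) (hij : i ≠ j) : ∃ a φ : ι → F, Tr H a φ ∧ a j ≠ 0 ∧ φ i ≠ 0 := by
  by_contra hcon
  push Not at hcon
  have hno : ∀ a φ : ι → F, Tr H a φ → φ i ≠ 0 → a j = 0 := fun a φ h hφ => by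
    by_contra ha
    exact hφ (hcon a φ h ha)
  set W : Submodule F (ι → F) := Submodule.span F {a | ∃ φ, Tr H a φ ∧ φ i ≠ 0} with hW
  have hWj : ∀ w ∈ W, w j = 0 := by
    intro w hw
    induction hw using Submodule.span_induction with
    | mem x hx =>
      obtain ⟨φ, h, hφ⟩ := hx
      exact hno _ _ h hφ
    | zero => rfl
    | add x y _ _ hx hy => rw [Pi.add_apply, hx, hy, add_zero]
    | smul c x _ hx => rw [Pi.smul_apply, hx, smul_zero]
  have hWt : W ≠ ⊤ := by
    intro h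
    have h1 := hWj (Pi.single j 1) (by rw [h]; trivial)
    rw [Pi.single_eq_same] at h1
    exact one_ne_zero h1
  have hWb : W ≠ ⊥ := by
    intro h
    have h0 : ∀ a φ : ι → F, Tr H a φ → φ i ≠ 0 → a = 0 := fun a φ h1 hφ => by
      have h3 : a ∈ W := Submodule.subset_span ⟨φ, h1, hφ⟩
      rw [h] at h3
      exact (Submodule.mem_bot F).1 h3
    have hs1 : Submodule.span F {(Pi.single i 1 : ι → F)} ≠ ⊥ := by
      rw [Ne, Submodule.span_singleton_eq_bot]
      intro h3
      have := congrFun h3 i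
      rw [Pi.single_eq_same] at this
      exact one_ne_zero this
    have hs2 : Submodule.span F {(Pi.single i 1 : ι → F)} ≠ ⊤ := by
      intro h3
      have h4 : (Pi.single j 1 : ι → F) ∈ Submodule.span F {(Pi.single i 1 : ι → F)} := by rw [h3]; trivial
      obtain ⟨c, hc⟩ := Submodule.mem_span_singleton.1 h4
      have := congrFun hc j
      rw [Pi.smul_apply, Pi.single_eq_of_ne hij.symm, smul_zero, Pi.single_eq_same] at this
      exact one_ne_zero this.symm
    obtain ⟨a, φ, h1, w, hw, hn⟩ := hirr _ hs1 hs2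
    obtain ⟨c, rfl⟩ := Submodule.mem_span_singleton.1 hw
    apply hn
    rw [dotProduct_smul, dotProduct_single, mul_one, smul_eq_mul]
    by_cases hφ : φ i = 0
    · rw [hφ, mul_zero, zero_smul]
      exact Submodule.zero_mem _
    · rw [h0 a φ h1 hφ, smul_zero]
      exact Submodule.zero_mem _
  obtain ⟨b, ψ, h1, w, hw, hn⟩ := hirr W hWb hWt
  apply hn
  clear hn
  induction hw using Submodule.span_induction with
  | mem x hx =>
    obtain ⟨φ, h, hφ⟩ := hx
    by_cases hψ : ψ i = 0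
    · have h3 := h.conj h1
      have h4 : x + (ψ ⬝ᵥ x) • b ∈ W := Submodule.subset_span ⟨_, h3, by
        rw [Pi.sub_apply, Pi.smul_apply, hψ, smul_zero, sub_zero]
        exact hφ⟩
      have h5 : x ∈ W := Submodule.subset_span ⟨φ, h, hφ⟩
      have h6 := W.sub_mem h4 h5
      rwa [add_sub_cancel_left] at h6
    · exact W.smul_mem _ (Submodule.subset_span ⟨ψ, h1, hψ⟩)
  | zero => rw [dotProduct_zero, zero_smul]; exact W.zero_mem
  | add x y _ _ hx hy => rw [dotProduct_add, add_smul]; exact W.add_mem hx hy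
  | smul c x _ hx => rw [dotProduct_smul, smul_assoc]; exact W.smul_mem _ hx

theorem exists_third (hcard : 3 ≤ Fintype.card ι) (i j : ι) : ∃ k : ι, k ≠ i ∧ k ≠ j := by
  by_contra hcon
  push Not at hcon
  have h6 : (Finset.univ : Finset ι) ⊆ {i, j} := fun x _ => by
    rw [Finset.mem_insert, Finset.mem_singleton]
    by_cases h : x = i
    · exact Or.inl h
    · exact Or.inr (hcon x h)
  have h7 := Finset.card_le_card h6
  have h8 : Finset.card ({i, j} : Finset ι) ≤ 2 := Finset.card_le_two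
  rw [Finset.card_univ] at h7
  omega

theorem Ed.symm [Finite F] (h2 : (2 : F) ≠ 0) (hE : HasE H) (hcard : 3 ≤ Fintype.card ι) (hirr : Irr H)
    (h : Ed H i j) : Ed H j i := by
  obtain ⟨hij, c, hc, hx⟩ := h
  obtain ⟨a, φ, ht, ha, hφ⟩ := exists_crossing hirr hij
  obtain ⟨k, hki, hkj⟩ := exists_third hcard i j
  exact ⟨hij.symm, sym h2 hE hij hki hkj hc hx ht.2 ht.1 ha hφ⟩

theorem two_pow_ne (h2 : (2 : F) ≠ 0) (m : ℕ) : (2 : F) ^ m ≠ 0 := pow_ne_zero m h2

/-- **All positions.** -/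
theorem hall [Finite F] (h2 : (2 : F) ≠ 0) (hE : HasE H) (hcard : Fintype.card ι = 3 ∨ 5 ≤ Fintype.card ι)
    (hirr : Irr H) {i₀ j₀ : ι} (h₀ : Ed H i₀ j₀) (i j : ι) (hij : i ≠ j) :
    ∃ c : F, c ≠ 0 ∧ Mm H (Matrix.transvection i j c) := by
  have hc3 : 3 ≤ Fintype.card ι := by omega
  have hsymm : ∀ {x y : ι}, Ed H x y → Ed H y x := fun h => h.symm h2 hE hc3 hirr
  -- the component
  let C : Set ι := {x | x = i₀ ∨ Ed H i₀ x}
  have hCC : ∀ x ∈ C, ∀ y ∈ C, x ≠ y → Ed H x y := by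
    rintro x (rfl | hx) y (rfl | hy) hxy
    · exact absurd rfl hxy
    · exact hy
    · exact hsymm hx
    · exact (hsymm hx).trans hy hxy
  have hCn : ∀ x ∈ C, ∀ y, Ed H x y → y ∈ C := by
    rintro x (rfl | hx) y hy
    · exact Or.inr hy
    · by_cases h : y = i₀
      · exact Or.inl h
      · exact Or.inr (hx.trans hy (Ne.symm h))
  have hi₀ : i₀ ∈ C := Or.inl rfl
  have hj₀ : j₀ ∈ C := Or.inr h₀
  by_cases hC : ∀ x, x ∈ C
  · exact (hCC i (hC i) j (hC j) hij).2
  exfalso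
  push Not at hC
  obtain ⟨l₀, hl₀⟩ := hC
  let Y : Submodule F (ι → F) :=
    { carrier := {w | ∀ x ∈ C, w x = 0}
      zero_mem' := fun x _ => rfl
      add_mem' := fun {u v} hu hv x hx => by rw [Pi.add_apply, hu x hx, hv x hx, add_zero]
      smul_mem' := fun c u hu x hx => by rw [Pi.smul_apply, hu x hx, smul_zero] }
  have hY : ∀ w, w ∈ Y ↔ ∀ x ∈ C, w x = 0 := fun w => Iff.rfl
  have hYb : Y ≠ ⊥ := by
    intro h
    have h1 : (Pi.single l₀ 1 : ι → F) ∈ Y := by
      intro x hx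
      rw [Pi.single_eq_of_ne]
      rintro rfl
      exact hl₀ hx
    rw [h, Submodule.mem_bot] at h1
    have := congrFun h1 l₀
    rw [Pi.single_eq_same] at this
    exact one_ne_zero this
  have hYt : Y ≠ ⊤ := by
    intro h
    have h1 : (Pi.single i₀ 1 : ι → F) ∈ Y := by rw [h]; trivial
    have := h1 i₀ hi₀
    rw [Pi.single_eq_same] at this
    exact one_ne_zero this
  obtain ⟨a, φ, ht, w, hw, hn⟩ := hirr Y hYb hYt
  apply hn
  by_cases hφw : φ ⬝ᵥ w = 0
  · rw [hφw, zero_smul]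
    exact Y.zero_mem
  obtain ⟨l, hl⟩ : ∃ l, φ l * w l ≠ 0 := by
    by_contra hcon
    push Not at hcon
    exact hφw (Finset.sum_eq_zero fun l _ => hcon l)
  have hφl : φ l ≠ 0 := left_ne_zero_of_mul hl
  have hlC : l ∉ C := fun h => right_ne_zero_of_mul hl (hw l h)
  refine Y.smul_mem _ ?_
  intro x hx
  by_contra hax
  -- a second element of the component
  obtain ⟨y, hyC, hyx⟩ : ∃ y ∈ C, y ≠ x := by
    by_cases h : i₀ = x
    · exact ⟨j₀, hj₀, by rw [← h]; exact h₀.1.symm⟩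
    · exact ⟨i₀, hi₀, h⟩
  obtain ⟨-, c, hc, hyxc⟩ := hCC y hyC x hx hyx
  have hly : l ≠ y := fun h => hlC (h ▸ hyC)
  have hlx : l ≠ x := fun h => hlC (h ▸ hx)
  by_cases hφy : φ y = 0
  · rw [tr_iff hyx] at hyxc
    have h1 := ht.conj hyxc
    have e1 : (Pi.single x (1 : F)) ⬝ᵥ a = a x := by rw [single_dotProduct, one_mul]
    have e2 : φ ⬝ᵥ (c • (Pi.single y 1 : ι → F)) = 0 := by
      rw [dotProduct_smul, dotProduct_single, hφy, zero_mul, smul_zero]
    rw [e1, e2, zero_smul, sub_zero] at h1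
    have h3 := h1.sub ht
    rw [add_sub_cancel_left] at h3
    have hsp : Sp y x (Matrix.vecMulVec (a x • c • (Pi.single y 1 : ι → F)) φ) := by
      intro r s hrs
      left
      rw [Matrix.vecMulVec_apply] at hrs
      constructor
      · by_contra hry
        apply hrs
        rw [Pi.smul_apply, Pi.smul_apply, Pi.single_eq_of_ne hry, smul_zero, smul_zero, zero_mul]
      · rintro rfl
        apply hrs
        rw [hφy, mul_zero]
    obtain ⟨m, hm⟩ := iso hE hcard hyx hly hlx hsp h3.2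
    apply hlC
    refine hCn y hyC l ⟨Ne.symm hly, _, ?_, hm⟩
    rw [Matrix.vecMulVec_apply, Pi.smul_apply, Pi.smul_apply, Pi.single_eq_same, smul_eq_mul, smul_eq_mul, mul_one]
    exact mul_ne_zero (two_pow_ne h2 m) (mul_ne_zero (mul_ne_zero hax hc) hφl)
  · obtain ⟨m, hm⟩ := edge_row h2 hE hcard hyx hc hyxc ht.2 ht.1 hax hφy hly hlx
    apply hlC
    refine hCn y hyC l ⟨Ne.symm hly, _, ?_, hm⟩
    exact mul_ne_zero (two_pow_ne h2 m) (mul_ne_zero (neg_ne_zero.2 h2) (mul_ne_zero (inv_ne_zero hφy) hφl))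

end Cfsg.Agent.H67.Odm
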