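import Cfsg.Agent.H67.OdmIso

/-!
# Two transvections and the diagonal sign matrices (TEAM ODDM, S4785, helper67)

`edge_row`, `edge_col`, `sym`.
-/

set_option autoImplicit false
set_option linter.unusedSectionVars false
set_option linter.unusedVariables false

namespace Cfsg.Agent.H67.Odm

open Matrix

universe u v

variable {ι : Type v} [Fintype ι] [DecidableEq ι] {F : Type u} [Field F]
variable {H : Subgroup (GL ι F)}

/-- transposed subgroup -/
def trS (H : Subgroup (GL ι F)) : Subgroup (GL ι F) where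
  carrier := {g | Mm H g.1ᵀ}
  one_mem' := by
    change Mm H (1 : Matrix ι ι F)ᵀ
    rw [Matrix.transpose_one]
    exact Mm.one
  mul_mem' := by
    intro x y hx hy
    change Mm H (x.1 * y.1)ᵀ
    rw [Matrix.transpose_mul]
    exact Mm.mul hy hx
  inv_mem' := by
    intro x hx
    refine Mm.inv_of hx ?_
    rw [← Matrix.transpose_mul, ← Units.val_mul, inv_mul_cancel, Units.val_one, Matrix.transpose_one]

theorem mm_trS {A : Matrix ι ι F} : Mm (trS H) A ↔ Mm H Aᵀ := by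
  constructor
  · rintro ⟨g, hg, rfl⟩
    exact hg
  · rintro ⟨h, hh, hA⟩
    have hA' : A = h.1ᵀ := by rw [hA, Matrix.transpose_transpose]
    refine ⟨⟨A, (h⁻¹ : GL ι F).1ᵀ, ?_, ?_⟩, ?_, rfl⟩
    · rw [hA', ← Matrix.transpose_mul, ← Units.val_mul, inv_mul_cancel, Units.val_one, Matrix.transpose_one]
    · rw [hA', ← Matrix.transpose_mul, ← Units.val_mul, mul_inv_cancel, Units.val_one, Matrix.transpose_one]
    · exact ⟨h, hh, hA⟩

theorem sgm_transpose (i j : ι) : (sgm (F := F) i j)ᵀ = sgm i j := Matrix.diagonal_transpose _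

theorem HasE.trS (hE : HasE H) : HasE (trS H) := fun i j hij => by
  rw [mm_trS, sgm_transpose]
  exact hE i j hij

theorem transvection_transpose (i j : ι) (c : F) : (Matrix.transvection i j c)ᵀ = Matrix.transvection j i c := by
  rw [Matrix.transvection, Matrix.transvection, Matrix.transpose_add, Matrix.transpose_one, Matrix.transpose_single]

theorem isoT (hE : HasE H) (hcard : Fintype.card ι = 3 ∨ 5 ≤ Fintype.card ι) {r c l : ι} (hrc : r ≠ c) (hlr : l ≠ r)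
    (hlc : l ≠ c) {M : Matrix ι ι F} (hM : Sp r c M) (h : Mm H (1 + M)) :
    ∃ m : ℕ, Mm H (Matrix.transvection l c (2 ^ m * M l c)) := by
  have h1 : Sp c r Mᵀ := fun a b hab => by
    rcases hM b a hab with h | h
    · exact Or.inr h
    · exact Or.inl h
  obtain ⟨m, hm⟩ := iso hE.trS hcard hrc.symm hlc hlr h1 (by
    rw [mm_trS, Matrix.transpose_add, Matrix.transpose_one, Matrix.transpose_transpose]
    exact h)
  rw [mm_trS, transvection_transpose, Matrix.transpose_apply] at hm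
  exact ⟨m, hm⟩

/-- the embedding of `2 × 2` matrices -/
def psf (X : Matrix ι (Fin 2) F) (Y : Matrix (Fin 2) ι F) (A : Matrix (Fin 2) (Fin 2) F) : Matrix ι ι F :=
  1 + X * (A - 1) * Y

theorem psf_one (X : Matrix ι (Fin 2) F) (Y : Matrix (Fin 2) ι F) : psf X Y 1 = 1 := by
  rw [psf, sub_self, Matrix.mul_zero, Matrix.zero_mul, add_zero]

theorem psf_mul {X : Matrix ι (Fin 2) F} {Y : Matrix (Fin 2) ι F} (h : Y * X = 1) (A B : Matrix (Fin 2) (Fin 2) F) :
    psf X Y (A * B) = psf X Y A * psf X Y B := by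
  have h1 : X * (A - 1) * Y * (X * (B - 1) * Y) = X * ((A - 1) * (B - 1)) * Y := by
    calc X * (A - 1) * Y * (X * (B - 1) * Y) = X * (A - 1) * (Y * X) * (B - 1) * Y := by
          simp only [Matrix.mul_assoc]
      _ = X * ((A - 1) * (B - 1)) * Y := by
          rw [h, Matrix.mul_one]
          simp only [Matrix.mul_assoc]
  rw [psf, psf, psf, mul_add, add_mul, add_mul, one_mul, mul_one, one_mul, h1]
  have h2 : A * B - 1 = (A - 1) + (B - 1) + (A - 1) * (B - 1) := by noncomm_ring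
  rw [h2]
  simp only [Matrix.mul_add, Matrix.add_mul]
  abel

/-- the embedding of `SL_2` -/
def psi {X : Matrix ι (Fin 2) F} {Y : Matrix (Fin 2) ι F} (h : Y * X = 1) : SL2 F →* GL ι F :=
  MonoidHom.toHomUnits
    { toFun := fun A => psf X Y A.1
      map_one' := psf_one X Y
      map_mul' := fun A B => psf_mul h A.1 B.1 }

theorem psi_val {X : Matrix ι (Fin 2) F} {Y : Matrix (Fin 2) ι F} (h : Y * X = 1) (A : SL2 F) :
    (psi h A).1 = psf X Y A.1 := rfl

theorem mem_comap_psi {X : Matrix ι (Fin 2) F} {Y : Matrix (Fin 2) ι F} (h : Y * X = 1) (A : SL2 F) :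
    A ∈ H.comap (psi h) ↔ Mm H (psf X Y A.1) := by
  rw [Subgroup.mem_comap]
  constructor
  · intro h1
    exact ⟨_, h1, psi_val h A⟩
  · rintro ⟨x, hx, hxA⟩
    have : x = psi h A := Units.ext (by rw [hxA, psi_val])
    rwa [← this]

/-- two columns -/
def Xm (x0 x1 : ι → F) : Matrix ι (Fin 2) F := Matrix.of fun k => ![x0 k, x1 k]
/-- two rows -/
def Ym (y0 y1 : ι → F) : Matrix (Fin 2) ι F := Matrix.of ![y0, y1]

theorem Ym_mul_Xm (x0 x1 y0 y1 : ι → F) (h00 : y0 ⬝ᵥ x0 = 1) (h01 : y0 ⬝ᵥ x1 = 0) (h10 : y1 ⬝ᵥ x0 = 0)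
    (h11 : y1 ⬝ᵥ x1 = 1) : Ym y0 y1 * Xm x0 x1 = 1 := by
  ext a b
  rw [Matrix.mul_apply]
  fin_cases a <;> fin_cases b
  · exact h00
  · exact h01
  · exact h10
  · exact h11

theorem psf_apply (x0 x1 y0 y1 : ι → F) (A : Matrix (Fin 2) (Fin 2) F) (r s : ι) :
    psf (Xm x0 x1) (Ym y0 y1) A r s = (1 : Matrix ι ι F) r s +
      (x0 r * (A 0 0 - 1) + x1 r * A 1 0) * y0 s + (x0 r * A 0 1 + x1 r * (A 1 1 - 1)) * y1 s := by
  rw [psf, Matrix.add_apply, Matrix.mul_apply, Fin.sum_univ_two, Matrix.mul_apply, Matrix.mul_apply,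
    Fin.sum_univ_two, Fin.sum_univ_two]
  simp [Xm, Ym]
  ring

section two

variable {i j : ι} {a φ : ι → F}

/-- the columns and rows attached to two transvections -/
theorem yx_one (hij : i ≠ j) (hφa : φ ⬝ᵥ a = 0) (ha : a j ≠ 0) (hφ : φ i ≠ 0) :
    Ym ((φ i)⁻¹ • φ) (Pi.single j 1) * Xm (Pi.single i 1) ((a j)⁻¹ • a) = 1 := by
  apply Ym_mul_Xm
  · rw [smul_dotProduct, dotProduct_single, mul_one, smul_eq_mul, inv_mul_cancel₀ hφ]
  · rw [smul_dotProduct, dotProduct_smul, hφa, smul_zero, smul_zero]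
  · rw [dotProduct_single, mul_one, Pi.single_eq_of_ne hij]
  · rw [single_dotProduct, one_mul, Pi.smul_apply, smul_eq_mul, inv_mul_cancel₀ ha]

theorem psf_up (c : F) : psf (Xm (Pi.single i 1) ((a j)⁻¹ • a)) (Ym ((φ i)⁻¹ • φ) (Pi.single j 1)) (up c).1 =
    Matrix.transvection i j c := by
  ext r s
  rw [psf_apply, up_00, up_01, up_10, up_11, Matrix.transvection, Matrix.add_apply, Matrix.single_apply]
  simp only [Pi.single_apply]
  rcases eq_or_ne i r with rfl | h1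
  · rcases eq_or_ne j s with rfl | h2
    · simp
    · simp [h2, h2.symm]
  · rcases eq_or_ne j s with rfl | h2
    · simp [h1, h1.symm]
    · simp [h1, h1.symm]

theorem psf_lo (ha : a j ≠ 0) (hφ : φ i ≠ 0) :
    psf (Xm (Pi.single i 1) ((a j)⁻¹ • a)) (Ym ((φ i)⁻¹ • φ) (Pi.single j 1)) (lo (a j * φ i)).1 =
    1 + Matrix.vecMulVec a φ := by
  ext r s
  rw [psf_apply, lo_00, lo_01, lo_10, lo_11, Matrix.add_apply, Matrix.vecMulVec_apply]
  simp only [Pi.smul_apply, smul_eq_mul]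
  field_simp
  ring

theorem ng_val : (ng : SL2 F).1 = -1 := by
  ext r s
  fin_cases r <;> fin_cases s <;> simp [ng]

theorem psf_ng (X : Matrix ι (Fin 2) F) (Y : Matrix (Fin 2) ι F) : psf X Y (ng : SL2 F).1 = 1 - 2 • (X * Y) := by
  rw [psf, ng_val]
  have : (-1 - 1 : Matrix (Fin 2) (Fin 2) F) = -(2 • (1 : Matrix (Fin 2) (Fin 2) F)) := by
    rw [two_smul]; abel
  rw [this, Matrix.mul_neg, Matrix.mul_smul, Matrix.mul_one, Matrix.neg_mul, Matrix.smul_mul, sub_eq_add_neg]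

/-- the involution -/
theorem mm_ng [Finite F] (h2 : (2 : F) ≠ 0) (hij : i ≠ j) {c : F} (hc : c ≠ 0) (hx : Mm H (Matrix.transvection i j c))
    (ht : Mm H (1 + Matrix.vecMulVec a φ)) (hφa : φ ⬝ᵥ a = 0) (ha : a j ≠ 0) (hφ : φ i ≠ 0) :
    Mm H (psf (Xm (Pi.single i 1) ((a j)⁻¹ • a)) (Ym ((φ i)⁻¹ • φ) (Pi.single j 1)) (ng : SL2 F).1) := by
  rw [← mem_comap_psi (yx_one hij hφa ha hφ)]
  refine ng_mem h2 hc (mul_ne_zero ha hφ) ?_ ?_
  · rw [mem_comap_psi, psf_up]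
    exact hx
  · rw [mem_comap_psi, psf_lo ha hφ]
    exact ht

/-- the unipotent element -/
def Nm (i j : ι) (a φ : ι → F) : Matrix ι ι F :=
  psf (Xm (Pi.single i 1) ((a j)⁻¹ • a)) (Ym ((φ i)⁻¹ • φ) (Pi.single j 1)) (ng : SL2 F).1 * sgm i j - 1

theorem Nm_apply (r s : ι) : Nm i j a φ r s =
    ((1 : Matrix ι ι F) r s - 2 * ((Pi.single i 1 : ι → F) r * ((φ i)⁻¹ * φ s) +
      (a j)⁻¹ * a r * (Pi.single j 1 : ι → F) s)) * sgv i j s - (1 : Matrix ι ι F) r s := by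
  rw [Nm, Matrix.sub_apply, sgm, Matrix.mul_diagonal, psf_apply, ng_00, ng_01, ng_10, ng_11]
  simp only [Pi.smul_apply, smul_eq_mul]
  ring

theorem Nm_other (hij : i ≠ j) {r s : ι} (hi : s ≠ i) (hj : s ≠ j) :
    Nm i j a φ r s = -2 * (Pi.single i 1 : ι → F) r * ((φ i)⁻¹ * φ s) := by
  rw [Nm_apply, sgv_n hi hj, Pi.single_eq_of_ne hj]
  ring

theorem Nm_i (hij : i ≠ j) (hφ : φ i ≠ 0) (r : ι) : Nm i j a φ r i = 0 := by
  rw [Nm_apply, sgv_l, Pi.single_eq_of_ne hij, inv_mul_cancel₀ hφ]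
  rw [Matrix.one_apply, Pi.single_apply]
  split_ifs <;> ring

theorem Nm_j (hij : i ≠ j) {r : ι} (hi : r ≠ i) (hj : r ≠ j) : Nm i j a φ r j = 2 * ((a j)⁻¹ * a r) := by
  rw [Nm_apply, sgv_r, Pi.single_eq_same, Pi.single_eq_of_ne hi, Matrix.one_apply_ne hj]
  ring

theorem Nm_jj (hij : i ≠ j) (ha : a j ≠ 0) (s : ι) : Nm i j a φ j s = 0 := by
  by_cases hsj : s = j
  · rw [hsj, Nm_apply, sgv_r, Pi.single_eq_same, Pi.single_eq_of_ne hij.symm, Matrix.one_apply_eq,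
      inv_mul_cancel₀ ha]
    ring
  · rw [Nm_apply, Pi.single_eq_of_ne hij.symm, Pi.single_eq_of_ne hsj, Matrix.one_apply_ne (Ne.symm hsj)]
    ring

theorem Nm_sp (hij : i ≠ j) (ha : a j ≠ 0) (hφ : φ i ≠ 0) : Sp i j (Nm i j a φ) := by
  intro r s hrs
  by_cases hsi : s = i
  · exact absurd (by rw [hsi]; exact Nm_i hij hφ r) hrs
  · by_cases hri : r = i
    · exact Or.inl ⟨hri, hsi⟩
    · by_cases hsj : s = j
      · refine Or.inr ⟨hsj, ?_⟩
        rintro rfl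
        exact hrs (Nm_jj hij ha s)
      · exfalso
        apply hrs
        rw [Nm_other hij hsi hsj, Pi.single_eq_of_ne hri]
        ring

theorem mm_Nm [Finite F] (h2 : (2 : F) ≠ 0) (hE : HasE H) (hij : i ≠ j) {c : F} (hc : c ≠ 0)
    (hx : Mm H (Matrix.transvection i j c))
    (ht : Mm H (1 + Matrix.vecMulVec a φ)) (hφa : φ ⬝ᵥ a = 0) (ha : a j ≠ 0) (hφ : φ i ≠ 0) :
    Mm H (1 + Nm i j a φ) := by
  rw [Nm, add_sub_cancel]
  exact (mm_ng h2 hij hc hx ht hφa ha hφ).mul (hE i j hij)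

theorem edge_row [Finite F] (h2 : (2 : F) ≠ 0) (hE : HasE H) (hcard : Fintype.card ι = 3 ∨ 5 ≤ Fintype.card ι)
    (hij : i ≠ j) {c : F} (hc : c ≠ 0) (hx : Mm H (Matrix.transvection i j c))
    (ht : Mm H (1 + Matrix.vecMulVec a φ)) (hφa : φ ⬝ᵥ a = 0) (ha : a j ≠ 0) (hφ : φ i ≠ 0) {l : ι} (hli : l ≠ i)
    (hlj : l ≠ j) : ∃ m : ℕ, Mm H (Matrix.transvection i l (2 ^ m * (-2 * ((φ i)⁻¹ * φ l)))) := by
  obtain ⟨m, hm⟩ := iso hE hcard hij hli hlj (Nm_sp hij ha hφ) (mm_Nm h2 hE hij hc hx ht hφa ha hφ)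
  rw [Nm_other hij hli hlj, Pi.single_eq_same, mul_one] at hm
  exact ⟨m, hm⟩

theorem edge_col [Finite F] (h2 : (2 : F) ≠ 0) (hE : HasE H) (hcard : Fintype.card ι = 3 ∨ 5 ≤ Fintype.card ι)
    (hij : i ≠ j) {c : F} (hc : c ≠ 0) (hx : Mm H (Matrix.transvection i j c))
    (ht : Mm H (1 + Matrix.vecMulVec a φ)) (hφa : φ ⬝ᵥ a = 0) (ha : a j ≠ 0) (hφ : φ i ≠ 0) {l : ι} (hli : l ≠ i)
    (hlj : l ≠ j) : ∃ m : ℕ, Mm H (Matrix.transvection l j (2 ^ m * (2 * ((a j)⁻¹ * a l)))) := by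
  obtain ⟨m, hm⟩ := isoT hE hcard hij hli hlj (Nm_sp hij ha hφ) (mm_Nm h2 hE hij hc hx ht hφa ha hφ)
  rw [Nm_j hij hli hlj] at hm
  exact ⟨m, hm⟩

/-- `A` fixes the column vector `e_i` and the row vector `e_j` -/
def Fx (i j : ι) (A : Matrix ι ι F) : Prop :=
  A *ᵥ Pi.single i 1 = Pi.single i 1 ∧ Pi.single j 1 ᵥ* A = Pi.single j 1

theorem Fx.one : Fx i j (1 : Matrix ι ι F) := ⟨Matrix.one_mulVec _, Matrix.vecMul_one _⟩

theorem Fx.mul {A B : Matrix ι ι F} (hA : Fx i j A) (hB : Fx i j B) : Fx i j (A * B) :=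
  ⟨by rw [← Matrix.mulVec_mulVec, hB.1, hA.1], by rw [← Matrix.vecMul_vecMul, hA.2, hB.2]⟩

theorem Fx.pow {A : Matrix ι ι F} (hA : Fx i j A) (n : ℕ) : Fx i j (A ^ n) := by
  induction n with
  | zero => rw [pow_zero]; exact Fx.one
  | succ n ih => rw [pow_succ]; exact ih.mul hA

theorem Fx_Nm (hij : i ≠ j) (ha : a j ≠ 0) (hφ : φ i ≠ 0) : Fx i j (1 + Nm i j a φ) := by
  constructor
  · rw [Matrix.add_mulVec, Matrix.one_mulVec, Matrix.mulVec_single_one]
    have : (Nm i j a φ).col i = 0 := by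
      ext r
      exact Nm_i hij hφ r
    rw [this, add_zero]
  · rw [Matrix.vecMul_add, Matrix.vecMul_one, Matrix.single_one_vecMul]
    have : (Nm i j a φ).row j = 0 := by
      ext s
      exact Nm_jj hij ha s
    rw [this, add_zero]

/-- the standard columns and rows -/
theorem yx_std (hij : i ≠ j) :
    Ym (Pi.single i (1 : F)) (Pi.single j 1) * Xm (Pi.single i (1 : F)) (Pi.single j 1) = 1 := by
  apply Ym_mul_Xm
  · simp
  · rw [single_dotProduct, one_mul, Pi.single_eq_of_ne hij]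
  · rw [single_dotProduct, one_mul, Pi.single_eq_of_ne hij.symm]
  · simp

theorem psf_std_up (c : F) : psf (Xm (Pi.single i (1 : F)) (Pi.single j 1)) (Ym (Pi.single i 1) (Pi.single j 1)) (up c).1 =
    Matrix.transvection i j c := by
  ext r s
  rw [psf_apply, up_00, up_01, up_10, up_11, Matrix.transvection, Matrix.add_apply, Matrix.single_apply]
  simp only [Pi.single_apply]
  rcases eq_or_ne i r with rfl | h1
  · rcases eq_or_ne j s with rfl | h2
    · simp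
    · simp [h2, h2.symm]
  · rcases eq_or_ne j s with rfl | h2
    · simp [h1, h1.symm]
    · simp [h1, h1.symm]

theorem psf_std_lo (c : F) : psf (Xm (Pi.single i (1 : F)) (Pi.single j 1)) (Ym (Pi.single i 1) (Pi.single j 1)) (lo c).1 =
    Matrix.transvection j i c := by
  ext r s
  rw [psf_apply, lo_00, lo_01, lo_10, lo_11, Matrix.transvection, Matrix.add_apply, Matrix.single_apply]
  simp only [Pi.single_apply]
  rcases eq_or_ne j r with rfl | h1
  · rcases eq_or_ne i s with rfl | h2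
    · simp
    · simp [h2, h2.symm]
  · rcases eq_or_ne i s with rfl | h2
    · simp [h1, h1.symm]
    · simp [h1, h1.symm]

theorem psf_std_ng (hij : i ≠ j) : psf (Xm (Pi.single i (1 : F)) (Pi.single j 1)) (Ym (Pi.single i 1) (Pi.single j 1))
    (ng : SL2 F).1 = sgm i j := by
  ext r s
  rw [psf_apply, ng_00, ng_01, ng_10, ng_11, sgm, Matrix.diagonal_apply, Matrix.one_apply]
  by_cases hrs : r = s
  · subst hrs
    rw [if_pos rfl, if_pos rfl]
    by_cases h1 : r = i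
    · rw [h1, sgv_l, Pi.single_eq_same, Pi.single_eq_of_ne hij]
      ring
    · by_cases h2 : r = j
      · rw [h2, sgv_r, Pi.single_eq_same, Pi.single_eq_of_ne hij.symm]
        ring
      · rw [sgv_n h1 h2, Pi.single_eq_of_ne h1, Pi.single_eq_of_ne h2]
        ring
  · rw [if_neg hrs, if_neg hrs]
    by_cases h1 : r = i
    · have hs : s ≠ i := fun h => hrs (h1.trans h.symm)
      rw [Pi.single_eq_of_ne hs, h1, Pi.single_eq_of_ne hij]
      ring
    · by_cases h2 : r = j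
      · have hs : s ≠ j := fun h => hrs (h2.trans h.symm)
        rw [Pi.single_eq_of_ne hs, h2, Pi.single_eq_of_ne hij.symm]
        ring
      · rw [Pi.single_eq_of_ne h1, Pi.single_eq_of_ne h2]
        ring

/-- `δ`-stability -/
theorem dl_std {k : ι} (hki : k ≠ i) (hkj : k ≠ j) (hij : i ≠ j) (A : SL2 F) :
    psf (Xm (Pi.single i (1 : F)) (Pi.single j 1)) (Ym (Pi.single i 1) (Pi.single j 1)) (dl A).1 =
    sgm i k * psf (Xm (Pi.single i (1 : F)) (Pi.single j 1)) (Ym (Pi.single i 1) (Pi.single j 1)) A.1 * sgm i k := by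
  ext r s
  rw [sgm_conj, psf_apply, psf_apply, dl_00, dl_01, dl_10, dl_11]
  have h1 : (sgv i k r : F) * (1 : Matrix ι ι F) r s * sgv i k s = (1 : Matrix ι ι F) r s := by
    rcases eq_or_ne r s with rfl | h
    · rw [Matrix.one_apply_eq, mul_one, sgv_sq]
    · rw [Matrix.one_apply_ne h, mul_zero, zero_mul]
  have hi : ∀ r : ι, (sgv i k r : F) * (Pi.single i 1 : ι → F) r = -(Pi.single i 1 : ι → F) r := by
    intro r
    rcases eq_or_ne r i with rfl | h
    · rw [sgv_l]; ring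
    · rw [Pi.single_eq_of_ne h]; ring
  have hj : ∀ r : ι, (sgv i k r : F) * (Pi.single j 1 : ι → F) r = (Pi.single j 1 : ι → F) r := by
    intro r
    rcases eq_or_ne r j with rfl | h
    · rw [sgv_n hij.symm (Ne.symm hkj)]; ring
    · rw [Pi.single_eq_of_ne h]; ring
  have hir := hi r
  have his := hi s
  have hjr := hj r
  have hjs := hj s
  generalize (sgv i k r : F) = e at *
  generalize (sgv i k s : F) = e' at *
  generalize (Pi.single i 1 : ι → F) r = x at *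
  generalize (Pi.single i 1 : ι → F) s = x' at *
  generalize (Pi.single j 1 : ι → F) r = y at *
  generalize (Pi.single j 1 : ι → F) s = y' at *
  have e1 : e * (x * (A.1 0 0 - 1) * x') * e' = x * (A.1 0 0 - 1) * x' := by
    linear_combination (A.1 0 0 - 1) * x' * e' * hir - (A.1 0 0 - 1) * x * his
  have e2 : e * (x * A.1 0 1 * y') * e' = -(x * A.1 0 1 * y') := by
    linear_combination (A.1 0 1) * y' * e' * hir - (A.1 0 1) * x * hjs
  have e3 : e * (y * A.1 1 0 * x') * e' = -(y * A.1 1 0 * x') := by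
    linear_combination (A.1 1 0) * x' * e' * hjr + (A.1 1 0) * y * his
  have e4 : e * (y * (A.1 1 1 - 1) * y') * e' = y * (A.1 1 1 - 1) * y' := by
    linear_combination (A.1 1 1 - 1) * y' * e' * hjr + (A.1 1 1 - 1) * y * hjs
  linear_combination -h1 - e1 - e2 - e3 - e4

/-- conjugation in a group: `(U G)² = 1`, `G² = 1`, `U^p = 1` -/
theorem conj_half {Γ : Type*} [Group Γ] {U G : Γ} (hG : G * G = 1) (hUG : (U * G) * (U * G) = 1) {p k : ℕ}
    (hU : U ^ p = 1) (hk : 2 * k = p + 1) : (U ^ k)⁻¹ * (U * G) * U ^ k = G := by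
  have hG' : G⁻¹ = G := inv_eq_of_mul_eq_one_left hG
  have h1 : G * U * G⁻¹ = U⁻¹ := by
    rw [hG', eq_inv_iff_mul_eq_one]
    have h3 : U * (G * U * G * U) * U⁻¹ = 1 := by
      calc U * (G * U * G * U) * U⁻¹ = (U * G) * (U * G) := by group
        _ = 1 := hUG
    have h4 : G * U * G * U = U⁻¹ * (U * (G * U * G * U) * U⁻¹) * U := by group
    rw [h4, h3]
    group
  have h2 : G * U ^ k * G⁻¹ = (U ^ k)⁻¹ := by
    rw [← conj_pow, h1, inv_pow]
  have h3 : G * U ^ k = (U ^ k)⁻¹ * G := by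
    rw [← h2]; group
  have h5 : (U ^ k)⁻¹ * U * (U ^ k)⁻¹ = 1 := by
    have h6 : U = U ^ k * U ^ k := by
      rw [← pow_add, ← two_mul, hk, pow_succ, hU, one_mul]
    have h7 : (U ^ k)⁻¹ * (U ^ k * U ^ k) * (U ^ k)⁻¹ = 1 := by group
    rwa [← h6] at h7
  calc (U ^ k)⁻¹ * (U * G) * U ^ k = (U ^ k)⁻¹ * U * (G * U ^ k) := by group
    _ = ((U ^ k)⁻¹ * U * (U ^ k)⁻¹) * G := by rw [h3]; group
    _ = G := by rw [h5, one_mul]

/-- **symmetry** -/
theorem sym [Finite F] (h2 : (2 : F) ≠ 0) (hE : HasE H) (hij : i ≠ j) {k : ι} (hki : k ≠ i) (hkj : k ≠ j)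
    {c : F} (hc : c ≠ 0) (hx : Mm H (Matrix.transvection i j c))
    (ht : Mm H (1 + Matrix.vecMulVec a φ)) (hφa : φ ⬝ᵥ a = 0) (ha : a j ≠ 0) (hφ : φ i ≠ 0) :
    ∃ d : F, d ≠ 0 ∧ Mm H (Matrix.transvection j i d) := by
  obtain ⟨p, hpc⟩ := CharP.exists F
  have hpp : p.Prime := CharP.char_is_prime F p
  have : Fact p.Prime := ⟨hpp⟩
  have hp2 : p ≠ 2 := by
    rintro rfl
    apply h2
    exact_mod_cast CharP.cast_eq_zero F 2
  have hp3 : 3 ≤ p := by
    have := hpp.two_le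
    omega
  obtain ⟨q, hq⟩ := hpp.odd_of_ne_two hp2
  -- notation
  set X := Xm (Pi.single i (1 : F)) ((a j)⁻¹ • a) with hX
  set Y := Ym ((φ i)⁻¹ • φ) (Pi.single j (1 : F)) with hY
  set X₀ := Xm (Pi.single i (1 : F)) (Pi.single j (1 : F)) with hX₀
  set Y₀ := Ym (Pi.single i (1 : F)) (Pi.single j (1 : F)) with hY₀
  have hYX : Y * X = 1 := yx_one hij hφa ha hφ
  have hYX₀ : Y₀ * X₀ = 1 := yx_std hij
  set N := Nm i j a φ with hN
  have hNH : Mm H (1 + N) := mm_Nm h2 hE hij hc hx ht hφa ha hφ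
  have hN3 : N * N * N = 0 := (Nm_sp hij ha hφ).mul3 hij (Nm_sp hij ha hφ) (Nm_sp hij ha hφ)
  have hNp : (1 + N) ^ p = 1 := by
    have : Nonempty ι := ⟨i⟩
    have : CharP (Matrix ι ι F) p := inferInstance
    rw [add_pow_char_of_commute _ (Commute.one_left N), one_pow]
    have : N ^ p = N * N * N * N ^ (p - 3) := by
      have h : p = 3 + (p - 3) := by omega
      conv_lhs => rw [h, pow_add]
      rw [pow_succ, pow_two]
    rw [this, hN3, zero_mul, add_zero]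
  obtain ⟨U, hUH, hU⟩ := hNH
  obtain ⟨G, hGH, hG⟩ := hE i j hij
  have hUp : U ^ p = 1 := Units.ext (by rw [Units.val_pow_eq_pow_val, hU, hNp]; rfl)
  have hGG : G * G = 1 := Units.ext (by rw [Units.val_mul, hG, sgm_sq]; rfl)
  have hUG : (U * G).1 = psf X Y (ng : SL2 F).1 := by
    rw [Units.val_mul, hU, hG, hN, Nm, add_sub_cancel, mul_assoc, sgm_sq, mul_one]
  have hngng : (ng : SL2 F) * ng = 1 := by rw [← pow_two]; exact ng_sq
  have hUG2 : (U * G) * (U * G) = 1 := Units.ext (by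
    rw [Units.val_mul, hUG, ← psf_mul hYX, ← Matrix.SpecialLinearGroup.coe_mul, hngng,
      Matrix.SpecialLinearGroup.coe_one, psf_one]
    rfl)
  have hk : 2 * (q + 1) = p + 1 := by omega
  have hconj := conj_half hGG hUG2 hUp hk
  set V := U ^ (q + 1) with hV
  have hVH : V ∈ H := H.pow_mem hUH _
  have hVF : Fx i j V.1 := by
    rw [hV, Units.val_pow_eq_pow_val, hU]
    exact (Fx_Nm hij ha hφ).pow _
  have hVi : Fx i j (V⁻¹ : GL ι F).1 := by
    have h1 : (V⁻¹ : GL ι F).1 * V.1 = 1 := by rw [← Units.val_mul, inv_mul_cancel]; rfl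
    have h1' : V.1 * (V⁻¹ : GL ι F).1 = 1 := by rw [← Units.val_mul, mul_inv_cancel]; rfl
    constructor
    · conv_lhs => rw [← hVF.1]
      rw [Matrix.mulVec_mulVec, h1, Matrix.one_mulVec]
    · conv_lhs => rw [← hVF.2]
      rw [Matrix.vecMul_vecMul, h1', Matrix.vecMul_one]
  set X' := (V⁻¹ : GL ι F).1 * X with hX'
  set Y' := Y * V.1 with hY'
  have hY'X' : Y' * X' = 1 := by
    rw [hY', hX', Matrix.mul_assoc, ← Matrix.mul_assoc V.1, ← Units.val_mul, mul_inv_cancel, Units.val_one,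
      Matrix.one_mul, hYX]
  have hcj : ∀ A : Matrix (Fin 2) (Fin 2) F, (V⁻¹ : GL ι F).1 * psf X Y A * V.1 = psf X' Y' A := by
    intro A
    rw [psf, psf, mul_add, add_mul, mul_one, ← Units.val_mul, inv_mul_cancel, Units.val_one, hX', hY']
    simp only [Matrix.mul_assoc]
  -- `X' Y' = X₀ Y₀`
  have hXY : X' * Y' = X₀ * Y₀ := by
    have h1 := congrArg (fun g : GL ι F => g.1) hconj
    simp only [Units.val_mul] at h1
    rw [← Units.val_mul, ← Units.val_mul] at h1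
    have h3 : ((V⁻¹ : GL ι F) * (U * G)).1 * V.1 = psf X' Y' (ng : SL2 F).1 := by
      rw [Units.val_mul, hUG, hcj]
    rw [h3, hG, ← psf_std_ng hij, psf_ng, psf_ng, sub_right_inj] at h1
    have h4 : (2 : F) • (X' * Y') = (2 : F) • (X₀ * Y₀) := by
      have e : ∀ Z : Matrix ι ι F, (2 : F) • Z = 2 • Z := fun Z => ofNat_smul_eq_nsmul F 2 Z
      rw [e, e]
      exact h1
    exact smul_right_injective _ h2 h4
  -- the matrix `G'`
  set A₀ := Y₀ * X' with hA₀
  set B₀ := Y' * X₀ with hB₀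
  have hBA : B₀ * A₀ = 1 := by
    rw [hA₀, hB₀]
    calc Y' * X₀ * (Y₀ * X') = Y' * (X₀ * Y₀) * X' := by simp only [Matrix.mul_assoc]
      _ = (Y' * X') * (Y' * X') := by rw [← hXY]; simp only [Matrix.mul_assoc]
      _ = 1 := by rw [hY'X', Matrix.one_mul]
  have hAB : A₀ * B₀ = 1 := mul_eq_one_comm.1 hBA
  have hXA : X₀ * A₀ = X' := by
    rw [hA₀, ← Matrix.mul_assoc, ← hXY, Matrix.mul_assoc, hY'X', Matrix.mul_one]
  have hBY : B₀ * Y₀ = Y' := by
    rw [hB₀, Matrix.mul_assoc, ← hXY, ← Matrix.mul_assoc, hY'X', Matrix.one_mul]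
  have hAup : A₀ = (up (A₀ 0 1)).1 := by
    have hcol0 : ∀ r, X' r 0 = (Pi.single i 1 : ι → F) r := by
      intro r
      have h3 : X' r 0 = ((V⁻¹ : GL ι F).1 *ᵥ (Pi.single i 1 : ι → F)) r := rfl
      rw [h3, hVi.1]
    have hrow : ∀ b, Y₀ 1 ⬝ᵥ (fun r => X' r b) = X j b := by
      intro b
      have h3 : Y₀ 1 ⬝ᵥ (fun r => X' r b) = ((Pi.single j 1 : ι → F) ᵥ* (V⁻¹ : GL ι F).1) ⬝ᵥ (fun r => X r b) := by
        rw [← Matrix.dotProduct_mulVec]
        rfl
      rw [h3, hVi.2, single_dotProduct, one_mul]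
    ext b b'
    fin_cases b <;> fin_cases b'
    · change Y₀ 0 ⬝ᵥ (fun r => X' r 0) = 1
      have : (fun r => X' r 0) = (Pi.single i 1 : ι → F) := funext hcol0
      rw [this, dotProduct_single, mul_one]
      change (Pi.single i 1 : ι → F) i = 1
      rw [Pi.single_eq_same]
    · rfl
    · change Y₀ 1 ⬝ᵥ (fun r => X' r 0) = 0
      rw [hrow]
      change (Pi.single i 1 : ι → F) j = 0
      rw [Pi.single_eq_of_ne hij.symm]
    · change Y₀ 1 ⬝ᵥ (fun r => X' r 1) = 1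
      rw [hrow]
      change (a j)⁻¹ * a j = 1
      rw [inv_mul_cancel₀ ha]
  have hBup : B₀ = ((up (A₀ 0 1))⁻¹ : SL2 F).1 := by
    have h3 : (up (A₀ 0 1)).1 * ((up (A₀ 0 1))⁻¹ : SL2 F).1 = 1 := by
      rw [← Matrix.SpecialLinearGroup.coe_mul, mul_inv_cancel, Matrix.SpecialLinearGroup.coe_one]
    rw [← hAup] at h3
    calc B₀ = B₀ * (A₀ * ((up (A₀ 0 1))⁻¹ : SL2 F).1) := by rw [h3, Matrix.mul_one]
      _ = ((up (A₀ 0 1))⁻¹ : SL2 F).1 := by rw [← Matrix.mul_assoc, hBA, Matrix.one_mul]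
  -- the group `L`
  have hd : a j * φ i ≠ 0 := mul_ne_zero ha hφ
  obtain ⟨d', hd', hd'L⟩ := exists_lower (F := F) h2 (L := H.comap (psi hYX₀)) (c := c)
    (t := up (A₀ 0 1) * lo (a j * φ i) * (up (A₀ 0 1))⁻¹) (α := A₀ 0 1) (d := a j * φ i) (by
      intro A hA
      rw [mem_comap_psi] at hA ⊢
      rw [dl_std hki hkj hij]
      exact ((hE i k (Ne.symm hki)).mul hA).mul (hE i k (Ne.symm hki))) hc (by
      rw [mem_comap_psi, psf_std_up]
      exact hx) (by
      rw [mem_comap_psi, Matrix.SpecialLinearGroup.coe_mul, Matrix.SpecialLinearGroup.coe_mul, ← hBup, ← hAup]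
      have h3 : psf X₀ Y₀ (A₀ * (lo (a j * φ i)).1 * B₀) = (V⁻¹ : GL ι F).1 * (1 + Matrix.vecMulVec a φ) * V.1 := by
        rw [← psf_lo ha hφ, ← hX, ← hY, hcj, psf, psf]
        congr 1
        have h4 : A₀ * (lo (a j * φ i)).1 * B₀ - 1 = A₀ * ((lo (a j * φ i)).1 - 1) * B₀ := by
          rw [Matrix.mul_sub, Matrix.sub_mul, Matrix.mul_one, hAB]
        rw [h4, ← hXA, ← hBY]
        simp only [Matrix.mul_assoc]
      rw [h3]
      have h5 : Mm H (V⁻¹ : GL ι F).1 := ⟨V⁻¹, H.inv_mem hVH, rfl⟩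
      have h6 : Mm H V.1 := ⟨V, hVH, rfl⟩
      exact (h5.mul ht).mul h6) hd rfl
  rw [mem_comap_psi, psf_std_lo] at hd'L
  exact ⟨d', hd', hd'L⟩

end two

end Cfsg.Agent.H67.Odm
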