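import Cfsg.Agent.H67.OdmPar

/-!
# Isolation of root elements by diagonal sign matrices (TEAM ODDM, S4785, helper67)
-/

set_option autoImplicit false
set_option linter.unusedSectionVars false

namespace Cfsg.Agent.H67.Odm

open Matrix

universe u v

variable {ι : Type v} [Fintype ι] [DecidableEq ι] {F : Type u} [Field F]

/-- the matrix `A` lies in `H` -/
def Mm (H : Subgroup (GL ι F)) (A : Matrix ι ι F) : Prop := ∃ h ∈ H, (h : Matrix ι ι F) = A

variable {H : Subgroup (GL ι F)} {A B : Matrix ι ι F}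

theorem Mm.one : Mm H 1 := ⟨1, H.one_mem, rfl⟩

theorem Mm.mul (h : Mm H A) (h' : Mm H B) : Mm H (A * B) := by
  obtain ⟨x, hx, rfl⟩ := h
  obtain ⟨y, hy, rfl⟩ := h'
  exact ⟨x * y, H.mul_mem hx hy, rfl⟩

theorem Mm.inv_of (h : Mm H A) (hAB : A * B = 1) : Mm H B := by
  obtain ⟨x, hx, rfl⟩ := h
  refine ⟨x⁻¹, H.inv_mem hx, ?_⟩
  have h1 : (x⁻¹ : GL ι F).1 * x.1 = 1 := by
    rw [← Units.val_mul, inv_mul_cancel]; rfl
  calc (x⁻¹ : GL ι F).1 = (x⁻¹ : GL ι F).1 * (x.1 * B) := by rw [hAB, mul_one]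
    _ = B := by rw [← mul_assoc, h1, one_mul]

theorem Mm.pow (h : Mm H A) (n : ℕ) : Mm H (A ^ n) := by
  induction n with
  | zero => rw [pow_zero]; exact Mm.one
  | succ n ih => rw [pow_succ]; exact ih.mul h

theorem Mm.mono {H' : Subgroup (GL ι F)} (hH : H ≤ H') (h : Mm H A) : Mm H' A := by
  obtain ⟨x, hx, rfl⟩ := h
  exact ⟨x, hH hx, rfl⟩

/-- signs -/
def sgv (i j : ι) : ι → F := fun k => if k = i ∨ k = j then -1 else 1

/-- the diagonal matrix with `-1` at `i` and `j` -/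
def sgm (i j : ι) : Matrix ι ι F := Matrix.diagonal (sgv i j)

omit [Fintype ι] in
theorem sgv_sq (i j k : ι) : (sgv i j k : F) * sgv i j k = 1 := by
  unfold sgv
  split_ifs <;> ring

theorem sgm_sq (i j : ι) : sgm (F := F) i j * sgm (F := F) i j = 1 := by
  rw [sgm, Matrix.diagonal_mul_diagonal, ← Matrix.diagonal_one]
  congr 1
  ext k
  exact sgv_sq i j k

theorem sgm_conj (i j : ι) (A : Matrix ι ι F) (r s : ι) :
    (sgm (F := F) i j * A * sgm (F := F) i j) r s = sgv i j r * A r s * sgv i j s := by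
  rw [sgm, Matrix.mul_diagonal, Matrix.diagonal_mul]

omit [Fintype ι] in
theorem sgv_l (i j : ι) : (sgv i j i : F) = -1 := if_pos (Or.inl rfl)
omit [Fintype ι] in
theorem sgv_r (i j : ι) : (sgv i j j : F) = -1 := if_pos (Or.inr rfl)
omit [Fintype ι] in
theorem sgv_n {i j k : ι} (h1 : k ≠ i) (h2 : k ≠ j) : (sgv i j k : F) = 1 := if_neg (by tauto)

/-- all products of two signs are in `H` -/
def HasE (H : Subgroup (GL ι F)) : Prop := ∀ i j : ι, i ≠ j → Mm H (sgm (F := F) i j)

/-- support in row `r` and column `c` -/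
def Sp (r c : ι) (M : Matrix ι ι F) : Prop := ∀ a b, M a b ≠ 0 → (a = r ∧ b ≠ r) ∨ (b = c ∧ a ≠ c)

omit [Fintype ι] in
theorem Sp.zero_of {r c : ι} {M : Matrix ι ι F} (h : Sp r c M) {a b : ι} (h1 : ¬ (a = r ∧ b ≠ r))
    (h2 : ¬ (b = c ∧ a ≠ c)) : M a b = 0 := by
  by_contra h3
  rcases h a b h3 with h | h
  · exact h1 h
  · exact h2 h

theorem Sp.mul_apply {r c : ι} (hrc : r ≠ c) {M N : Matrix ι ι F} (hM : Sp r c M) (hN : Sp r c N) {a b : ι}
    (h : ¬ (a = r ∧ b = c)) : (M * N) a b = 0 := by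
  rw [Matrix.mul_apply]
  refine Finset.sum_eq_zero fun k _ => ?_
  by_contra h0
  have h1 := left_ne_zero_of_mul h0
  have h2 := right_ne_zero_of_mul h0
  rcases hM _ _ h1 with ⟨h3, h4⟩ | ⟨h3, h4⟩
  · rcases hN _ _ h2 with ⟨h5, h6⟩ | ⟨h5, h6⟩
    · exact h4 h5
    · exact h ⟨h3, h5⟩
  · rcases hN _ _ h2 with ⟨h5, h6⟩ | ⟨h5, h6⟩
    · exact hrc (h5.symm.trans h3)
    · exact h6 h3

theorem Sp.mul {r c : ι} (hrc : r ≠ c) {M N : Matrix ι ι F} (hM : Sp r c M) (hN : Sp r c N) : Sp r c (M * N) := by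
  intro a b h
  by_cases h1 : a = r ∧ b = c
  · exact Or.inl ⟨h1.1, by rw [h1.2]; exact hrc.symm⟩
  · exact absurd (hM.mul_apply hrc hN h1) h

omit [Fintype ι] in
theorem Sp.add {r c : ι} {M N : Matrix ι ι F} (hM : Sp r c M) (hN : Sp r c N) : Sp r c (M + N) := by
  intro a b h
  rw [Matrix.add_apply] at h
  by_cases h1 : M a b = 0
  · rw [h1, zero_add] at h
    exact hN _ _ h
  · exact hM _ _ h1

omit [Fintype ι] in
theorem Sp.neg {r c : ι} {M : Matrix ι ι F} (hM : Sp r c M) : Sp r c (-M) := by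
  intro a b h
  rw [Matrix.neg_apply, neg_ne_zero] at h
  exact hM _ _ h

theorem Sp.mul3 {r c : ι} (hrc : r ≠ c) {M N P : Matrix ι ι F} (hM : Sp r c M) (hN : Sp r c N) (hP : Sp r c P) :
    M * N * P = 0 := by
  ext a b
  rw [Matrix.mul_apply, Matrix.zero_apply]
  refine Finset.sum_eq_zero fun k _ => ?_
  by_cases h1 : a = r ∧ k = c
  · have : P k b = 0 := hP.zero_of (fun h => hrc (h.1.symm.trans h1.2)) (fun h => h.2 h1.2)
    rw [this, mul_zero]
  · rw [hM.mul_apply hrc hN h1, zero_mul]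

/-- membership modulo the `(r,c)` entry -/
def Bq (H : Subgroup (GL ι F)) (r c : ι) (M : Matrix ι ι F) : Prop :=
  ∃ N, Sp r c N ∧ Mm H (1 + N) ∧ ∀ a b, ¬ (a = r ∧ b = c) → N a b = M a b

theorem Bq.add {r c : ι} (hrc : r ≠ c) {M M' : Matrix ι ι F} (h : Bq H r c M) (h' : Bq H r c M') :
    Bq H r c (M + M') := by
  obtain ⟨N, hN, hm, he⟩ := h
  obtain ⟨N', hN', hm', he'⟩ := h'
  refine ⟨N + N' + N * N', (hN.add hN').add (hN.mul hrc hN'), ?_, fun a b hab => ?_⟩
  · have := hm.mul hm'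
    have h1 : (1 + N) * (1 + N') = 1 + (N + N' + N * N') := by noncomm_ring
    rwa [h1] at this
  · rw [Matrix.add_apply, Matrix.add_apply, hN.mul_apply hrc hN' hab, he a b hab, he' a b hab, add_zero,
      Matrix.add_apply]

theorem Bq.neg {r c : ι} (hrc : r ≠ c) {M : Matrix ι ι F} (h : Bq H r c M) : Bq H r c (-M) := by
  obtain ⟨N, hN, hm, he⟩ := h
  refine ⟨-N + N * N, hN.neg.add (hN.mul hrc hN), ?_, fun a b hab => ?_⟩
  · refine hm.inv_of ?_
    have h3 := hN.mul3 hrc hN hN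
    have h1 : (1 + N) * (1 + (-N + N * N)) = 1 + N * N * N := by noncomm_ring
    rw [h1, h3, add_zero]
  · rw [Matrix.add_apply, hN.mul_apply hrc hN hab, Matrix.neg_apply, he a b hab, add_zero, Matrix.neg_apply]

/-- multiply the entries by signs -/
def had (i j : ι) (M : Matrix ι ι F) : Matrix ι ι F := Matrix.of fun a b => sgv i j a * M a b * sgv i j b

theorem Bq.had (hE : HasE H) {r c : ι} {M : Matrix ι ι F} (h : Bq H r c M) {i j : ι} (hij : i ≠ j) :
    Bq H r c (had i j M) := by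
  obtain ⟨N, hN, hm, he⟩ := h
  refine ⟨sgm (F := F) i j * N * sgm (F := F) i j, ?_, ?_, ?_⟩
  · intro a b hab
    rw [sgm_conj] at hab
    exact hN a b (fun h0 => hab (by rw [h0, mul_zero, zero_mul]))
  · have h1 := ((hE i j hij).mul hm).mul (hE i j hij)
    have h2 : sgm (F := F) i j * (1 + N) * sgm (F := F) i j = 1 + sgm (F := F) i j * N * sgm (F := F) i j := by
      rw [mul_add, mul_one, add_mul, sgm_sq]
    rwa [h2] at h1
  · intro a b hab
    rw [sgm_conj, he a b hab]
    rfl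

/-- **Isolation.** -/
theorem iso (hE : HasE H) (hcard : Fintype.card ι = 3 ∨ 5 ≤ Fintype.card ι) {r c l : ι} (hrc : r ≠ c) (hlr : l ≠ r)
    (hlc : l ≠ c) {M : Matrix ι ι F} (hM : Sp r c M) (h : Mm H (1 + M)) :
    ∃ m : ℕ, Mm H (Matrix.transvection r l (2 ^ m * M r l)) := by
  have hB : Bq H r c M := ⟨M, hM, h, fun _ _ _ => rfl⟩
  -- it suffices to isolate modulo the `(r,c)` entry
  have key : (∃ (m : ℕ) (M' : Matrix ι ι F), Bq H r c M' ∧ M' r l = 2 ^ m * M r l ∧
      ∀ a b, ¬ (a = r ∧ b = c) → ¬ (a = r ∧ b = l) → ((a = r ∧ b ≠ r) ∨ (b = c ∧ a ≠ c)) → M' a b = 0) →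
      ∃ m : ℕ, Mm H (Matrix.transvection r l (2 ^ m * M r l)) := by
    rintro ⟨m, M', ⟨N, hN, hm, he⟩, hMl, hM'⟩
    have hN0 : ∀ a b, ¬ (a = r ∧ b = c) → ¬ (a = r ∧ b = l) → N a b = 0 := by
      intro a b h1 h2
      by_contra h3
      have h4 := hN a b h3
      rw [he a b h1] at h3
      exact h3 (hM' a b h1 h2 h4)
    have hNl : N r l = 2 ^ m * M r l := by
      rw [he r l (fun h => hlc h.2), hMl]
    refine ⟨m + 1, ?_⟩
    have h1 := hm.mul (((hE r l hlr.symm).mul hm).mul (hE r l hlr.symm))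
    have h2 : (1 + N) * (sgm (F := F) r l * (1 + N) * sgm (F := F) r l) = 1 + (N + sgm (F := F) r l * N * sgm (F := F) r l) +
        N * (sgm (F := F) r l * N * sgm (F := F) r l) := by
      rw [mul_add, mul_one, add_mul (sgm (F := F) r l), sgm_sq]
      noncomm_ring
    have hNN : N * (sgm (F := F) r l * N * sgm (F := F) r l) = 0 := by
      ext a b
      rw [Matrix.mul_apply, Matrix.zero_apply]
      refine Finset.sum_eq_zero fun k _ => ?_
      rw [sgm_conj]
      by_cases hk : k = r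
      · have : N a k = 0 := by
          rw [hk]
          exact hN0 _ _ (fun h => hrc h.2) (fun h => hlr h.2.symm)
        rw [this, zero_mul]
      · have : N k b = 0 := hN0 _ _ (fun h => hk h.1) (fun h => hk h.1)
        rw [this, mul_zero, zero_mul, mul_zero]
    rw [h2, hNN, add_zero] at h1
    have h3 : 1 + (N + sgm (F := F) r l * N * sgm (F := F) r l) = Matrix.transvection r l (2 ^ (m + 1) * M r l) := by
      rw [Matrix.transvection]
      congr 1
      ext a b
      rw [Matrix.add_apply, sgm_conj]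
      by_cases h4 : a = r ∧ b = l
      · rw [h4.1, h4.2, sgv_l, sgv_r, hNl, Matrix.single_apply_same]
        ring
      · rw [Matrix.single_apply_of_ne _ _ _ _ _ (fun h => h4 ⟨h.1.symm, h.2.symm⟩)]
        by_cases h5 : a = r ∧ b = c
        · rw [h5.1, h5.2, sgv_l, sgv_n hrc.symm hlc.symm]
          ring
        · rw [hN0 a b h5 h4]
          ring
    rwa [h3] at h1
  apply key
  set M₁ := M + had r l M with hM₁
  have hB₁ : Bq H r c M₁ := hB.add hrc (hB.had hE hlr.symm)
  have e₁ : ∀ a b, M₁ a b = M a b + sgv r l a * M a b * sgv r l b := fun a b => rfl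
  rcases hcard with h3 | h5
  · refine ⟨1, M₁, hB₁, ?_, ?_⟩
    · rw [e₁, sgv_l, sgv_r]
      ring
    · rintro a b h1 h2 (⟨rfl, hb⟩ | ⟨rfl, ha⟩)
      · rw [e₁, sgv_l, sgv_n hb (fun h => h2 ⟨rfl, h⟩)]
        ring
      · have har : a ≠ r := fun h => h1 ⟨h, rfl⟩
        by_cases hal : a = l
        · rw [e₁, hal, sgv_r, sgv_n hrc.symm hlc.symm]
          ring
        · exfalso
          have h4 : Finset.card ({r, b, l, a} : Finset ι) = 4 := by
            rw [Finset.card_insert_of_notMem, Finset.card_insert_of_notMem, Finset.card_insert_of_notMem,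
              Finset.card_singleton]
            · simpa using fun h => hal h.symm
            · simp only [Finset.mem_insert, Finset.mem_singleton, not_or]
              exact ⟨hlc.symm, ha.symm⟩
            · simp only [Finset.mem_insert, Finset.mem_singleton, not_or]
              exact ⟨hrc, hlr.symm, har.symm⟩
          have h6 := Finset.card_le_univ ({r, b, l, a} : Finset ι)
          omega
  · obtain ⟨e, he⟩ : ∃ e : ι, e ∉ ({r, c, l} : Finset ι) := by
      by_contra hcon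
      push Not at hcon
      have h6 : (Finset.univ : Finset ι) ⊆ {r, c, l} := fun x _ => hcon x
      have h7 := Finset.card_le_card h6
      have h8 : Finset.card ({r, c, l} : Finset ι) ≤ 3 := Finset.card_le_three
      rw [Finset.card_univ] at h7
      omega
    obtain ⟨f, hf⟩ : ∃ f : ι, f ∉ ({r, c, l, e} : Finset ι) := by
      by_contra hcon
      push Not at hcon
      have h6 : (Finset.univ : Finset ι) ⊆ {r, c, l, e} := fun x _ => hcon x
      have h7 := Finset.card_le_card h6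
      have h8 : Finset.card ({r, c, l, e} : Finset ι) ≤ 4 := Finset.card_le_four
      rw [Finset.card_univ] at h7
      omega
    simp only [Finset.mem_insert, Finset.mem_singleton, not_or] at he hf
    obtain ⟨her, hec, hel⟩ := he
    obtain ⟨hfr, hfc, hfl, hfe⟩ := hf
    set M₂ := M₁ + -(had l e M₁) with hM₂
    have hB₂ : Bq H r c M₂ := hB₁.add hrc ((hB₁.had hE (Ne.symm hel)).neg hrc)
    have e₂ : ∀ a b, M₂ a b = M₁ a b + -(sgv l e a * M₁ a b * sgv l e b) := fun a b => rfl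
    set M₃ := M₂ + had e f M₂ with hM₃
    have hB₃ : Bq H r c M₃ := hB₂.add hrc (hB₂.had hE (Ne.symm hfe))
    have e₃ : ∀ a b, M₃ a b = M₂ a b + sgv e f a * M₂ a b * sgv e f b := fun a b => rfl
    refine ⟨3, M₃, hB₃, ?_, ?_⟩
    · rw [e₃, e₂, e₁, sgv_l, sgv_r, sgv_l, sgv_n (Ne.symm hlr) (Ne.symm her), sgv_n (Ne.symm her) (Ne.symm hfr),
        sgv_n (Ne.symm hel) (Ne.symm hfl)]
      ring
    · rintro a b h1 h2 (⟨rfl, hb⟩ | ⟨rfl, ha⟩)
      · have : M₁ a b = 0 := by
          rw [e₁, sgv_l, sgv_n hb (fun h => h2 ⟨rfl, h⟩)]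
          ring
        rw [e₃, e₂, this]
        ring
      · have har : a ≠ r := fun h => h1 ⟨h, rfl⟩
        by_cases hal : a = l
        · have : M₁ a b = 0 := by
            rw [e₁, hal, sgv_r, sgv_n hrc.symm hlc.symm]
            ring
          rw [e₃, e₂, this]
          ring
        · by_cases hae : a = e
          · rw [e₃, hae, sgv_l, sgv_n (Ne.symm hec) (Ne.symm hfc)]
            ring
          · have : M₂ a b = 0 := by
              rw [e₂, sgv_n hal hae, sgv_n hlc.symm (Ne.symm hec)]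
              ring
            rw [e₃, this]
            ring

end Cfsg.Agent.H67.Odm
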