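import Cfsg.Agent.H262.ElTvA

/-!
# The parity argument in `SL_2(F)` (TEAM ODDM, S4785, helper67)

`exists_lower` : a subgroup `L` of `SL_2(F)`, `F` finite of odd characteristic, normalised by `diag(-1,1)`, containing an
upper unitriangular element and a unipotent element which is not upper triangular, contains a lower unitriangular element.
-/

set_option autoImplicit false

namespace Cfsg.Agent.H67.Odm

open Matrix
open scoped Pointwise

universe u

variable {F : Type u} [Field F]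

abbrev SL2 (F : Type u) [Field F] := Matrix.SpecialLinearGroup (Fin 2) F

/-- upper unitriangular -/
def up (c : F) : SL2 F := ⟨!![1, c; 0, 1], by rw [Matrix.det_fin_two_of]; ring⟩

/-- lower unitriangular -/
def lo (c : F) : SL2 F := ⟨!![1, 0; c, 1], by rw [Matrix.det_fin_two_of]; ring⟩

/-- minus one -/
def ng : SL2 F := ⟨!![-1, 0; 0, -1], by rw [Matrix.det_fin_two_of]; ring⟩

theorem sl_ext {A B : SL2 F} (h00 : A.1 0 0 = B.1 0 0) (h01 : A.1 0 1 = B.1 0 1) (h10 : A.1 1 0 = B.1 1 0)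
    (h11 : A.1 1 1 = B.1 1 1) : A = B := by
  apply Subtype.ext
  ext i j
  fin_cases i <;> fin_cases j <;> assumption

theorem mul_00 (A B : SL2 F) : (A * B).1 0 0 = A.1 0 0 * B.1 0 0 + A.1 0 1 * B.1 1 0 := by
  rw [Matrix.SpecialLinearGroup.coe_mul, Matrix.mul_apply, Fin.sum_univ_two]

theorem mul_01 (A B : SL2 F) : (A * B).1 0 1 = A.1 0 0 * B.1 0 1 + A.1 0 1 * B.1 1 1 := by
  rw [Matrix.SpecialLinearGroup.coe_mul, Matrix.mul_apply, Fin.sum_univ_two]

theorem mul_10 (A B : SL2 F) : (A * B).1 1 0 = A.1 1 0 * B.1 0 0 + A.1 1 1 * B.1 1 0 := by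
  rw [Matrix.SpecialLinearGroup.coe_mul, Matrix.mul_apply, Fin.sum_univ_two]

theorem mul_11 (A B : SL2 F) : (A * B).1 1 1 = A.1 1 0 * B.1 0 1 + A.1 1 1 * B.1 1 1 := by
  rw [Matrix.SpecialLinearGroup.coe_mul, Matrix.mul_apply, Fin.sum_univ_two]

theorem det_eq (A : SL2 F) : A.1 0 0 * A.1 1 1 - A.1 0 1 * A.1 1 0 = 1 := by
  rw [← Matrix.det_fin_two]; exact A.2

@[simp] theorem up_00 (c : F) : (up c).1 0 0 = 1 := rfl
@[simp] theorem up_01 (c : F) : (up c).1 0 1 = c := rfl
@[simp] theorem up_10 (c : F) : (up c).1 1 0 = 0 := rfl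
@[simp] theorem up_11 (c : F) : (up c).1 1 1 = 1 := rfl
@[simp] theorem lo_00 (c : F) : (lo c).1 0 0 = 1 := rfl
@[simp] theorem lo_01 (c : F) : (lo c).1 0 1 = 0 := rfl
@[simp] theorem lo_10 (c : F) : (lo c).1 1 0 = c := rfl
@[simp] theorem lo_11 (c : F) : (lo c).1 1 1 = 1 := rfl
@[simp] theorem ng_00 : (ng : SL2 F).1 0 0 = -1 := rfl
@[simp] theorem ng_01 : (ng : SL2 F).1 0 1 = 0 := rfl
@[simp] theorem ng_10 : (ng : SL2 F).1 1 0 = 0 := rfl
@[simp] theorem ng_11 : (ng : SL2 F).1 1 1 = -1 := rfl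

theorem up_mul (c d : F) : up c * up d = up (c + d) := by
  apply sl_ext <;> simp only [mul_00, mul_01, mul_10, mul_11, up_00, up_01, up_10, up_11] <;> ring

theorem up_zero : up (0 : F) = 1 := by
  apply sl_ext <;> simp

theorem up_inv (c : F) : (up c)⁻¹ = up (-c) := by
  rw [inv_eq_iff_mul_eq_one, up_mul, add_neg_cancel, up_zero]

theorem lo_mul (c d : F) : lo c * lo d = lo (c + d) := by
  apply sl_ext <;> simp only [mul_00, mul_01, mul_10, mul_11, lo_00, lo_01, lo_10, lo_11] <;> ring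

theorem lo_zero : lo (0 : F) = 1 := by
  apply sl_ext <;> simp

theorem up_pow (c : F) (n : ℕ) : up c ^ n = up (n * c) := by
  induction n with
  | zero => simp [up_zero]
  | succ n ih => rw [pow_succ, ih, up_mul]; congr 1; push_cast; ring

theorem lo_pow (c : F) (n : ℕ) : lo c ^ n = lo (n * c) := by
  induction n with
  | zero => simp [lo_zero]
  | succ n ih => rw [pow_succ, ih, lo_mul]; congr 1; push_cast; ring

theorem ng_comm (A : SL2 F) : ng * A = A * ng := by
  apply sl_ext <;> simp only [mul_00, mul_01, mul_10, mul_11, ng_00, ng_01, ng_10, ng_11] <;> ring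

theorem ng_ne_one (h2 : (2 : F) ≠ 0) : (ng : SL2 F) ≠ 1 := by
  intro h
  have h1 := congrArg (fun A : SL2 F => A.1 0 0) h
  simp only [ng_00, Matrix.SpecialLinearGroup.coe_one, Matrix.one_apply_eq] at h1
  exact h2 (by linear_combination -h1)

theorem ng_sq : (ng : SL2 F) ^ 2 = 1 := by
  rw [pow_two]
  apply sl_ext <;> simp [mul_00, mul_01, mul_10, mul_11]

/-- conjugation by `diag(1, d)` -/
def scf {d : F} (hd : d ≠ 0) (A : SL2 F) : SL2 F :=
  ⟨!![A.1 0 0, A.1 0 1 / d; A.1 1 0 * d, A.1 1 1], by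
    rw [Matrix.det_fin_two_of]
    have := det_eq A
    field_simp
    exact this⟩

theorem scf_00 {d : F} (hd : d ≠ 0) (A : SL2 F) : (scf hd A).1 0 0 = A.1 0 0 := rfl
theorem scf_01 {d : F} (hd : d ≠ 0) (A : SL2 F) : (scf hd A).1 0 1 = A.1 0 1 / d := rfl
theorem scf_10 {d : F} (hd : d ≠ 0) (A : SL2 F) : (scf hd A).1 1 0 = A.1 1 0 * d := rfl
theorem scf_11 {d : F} (hd : d ≠ 0) (A : SL2 F) : (scf hd A).1 1 1 = A.1 1 1 := rfl

/-- conjugation by `diag(1, d)` -/
def sc {d : F} (hd : d ≠ 0) : SL2 F →* SL2 F where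
  toFun := scf hd
  map_one' := by
    apply sl_ext
    · rw [scf_00]
    · rw [scf_01, Matrix.SpecialLinearGroup.coe_one, Matrix.one_apply_ne (by decide), zero_div]
    · rw [scf_10, Matrix.SpecialLinearGroup.coe_one, Matrix.one_apply_ne (by decide), zero_mul]
    · rw [scf_11]
  map_mul' A B := by
    apply sl_ext
    · rw [mul_00, scf_00, scf_00, scf_00, scf_01, scf_10, mul_00]; field_simp
    · rw [mul_01, scf_01, scf_01, scf_00, scf_01, scf_11, mul_01]; field_simp
    · rw [mul_10, scf_10, scf_10, scf_00, scf_11, scf_10, mul_10]; ring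
    · rw [mul_11, scf_11, scf_10, scf_01, scf_11, scf_11, mul_11]; field_simp

theorem sc_apply {d : F} (hd : d ≠ 0) (A : SL2 F) :
    (sc hd A).1 = !![A.1 0 0, A.1 0 1 / d; A.1 1 0 * d, A.1 1 1] := rfl

/-- **two unipotent elements generate a group containing `-1`** -/
theorem ng_mem [Finite F] (h2 : (2 : F) ≠ 0) {c d : F} (hc : c ≠ 0) (hd : d ≠ 0) {L : Subgroup (SL2 F)}
    (hu : up c ∈ L) (hl : lo d ∈ L) : ng ∈ L := by
  set k := Subfield.closure ({c * d} : Set F) with hk
  have hlam : c * d ∈ k := Subfield.subset_closure rfl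
  set lam : k := ⟨c * d, hlam⟩ with hlamd
  have hfink : Finite k := inferInstance
  have : Fintype k := Fintype.ofFinite k
  let Ψ : Matrix.SpecialLinearGroup (Fin 2) k →* SL2 F :=
    (sc hd).comp (Matrix.SpecialLinearGroup.map k.subtype)
  have hΨ : ∀ A : Matrix.SpecialLinearGroup (Fin 2) k, (Ψ A).1 =
      !![(A.1 0 0 : F), (A.1 0 1 : F) / d; (A.1 1 0 : F) * d, (A.1 1 1 : F)] := by
    intro A
    change (sc hd _).1 = _
    rw [sc_apply]
    rfl
  have h2k : (2 : k) ≠ 0 := by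
    intro h
    apply h2
    have := congrArg k.subtype h
    rwa [map_ofNat, map_zero] at this
  have hle : Subgroup.closure {g : Matrix.SpecialLinearGroup (Fin 2) k |
      (g : Matrix (Fin 2) (Fin 2) k) = !![1, 0; 1, 1] ∨ (g : Matrix (Fin 2) (Fin 2) k) = !![1, lam; 0, 1]} ≤
      L.comap Ψ := by
    rw [Subgroup.closure_le]
    rintro g (hg | hg)
    · rw [SetLike.mem_coe, Subgroup.mem_comap]
      have : Ψ g = lo d := by
        apply Subtype.ext
        rw [hΨ, hg]
        ext i j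
        fin_cases i <;> fin_cases j <;> simp [lo]
      rw [this]
      exact hl
    · rw [SetLike.mem_coe, Subgroup.mem_comap]
      have : Ψ g = up c := by
        apply Subtype.ext
        rw [hΨ, hg]
        ext i j
        fin_cases i <;> fin_cases j <;> simp [up, hlamd]
        field_simp
      rw [this]
      exact hu
  have hng : ∀ w : Matrix.SpecialLinearGroup (Fin 2) k, w.1 = !![-1, 0; 0, -1] → Ψ w = ng := by
    intro w hw
    apply Subtype.ext
    rw [hΨ, hw]
    ext i j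
    fin_cases i <;> fin_cases j <;> simp [ng]
  rcases Cfsg.Agent.S0801.result h2k lam (fun h => mul_ne_zero hc hd (by
      have := congrArg (fun x : k => (x : F)) h
      simpa [hlamd] using this)) (H262.Tv.closure_singleton_top lam rfl) with ⟨htop, -⟩ | ⟨h9, hl2, h120⟩
  · have h1 : (ng : Matrix.SpecialLinearGroup (Fin 2) k) ∈ L.comap Ψ := hle (by rw [htop]; trivial)
    rw [Subgroup.mem_comap, hng ng rfl] at h1
    exact h1
  · have : Fact (Nat.Prime 2) := ⟨Nat.prime_two⟩
    obtain ⟨⟨w, hwc⟩, hw⟩ := exists_prime_orderOf_dvd_card' 2 (by rw [h120]; norm_num :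
      2 ∣ Nat.card ↥(Subgroup.closure {g : Matrix.SpecialLinearGroup (Fin 2) k |
        (g : Matrix (Fin 2) (Fin 2) k) = !![1, 0; 1, 1] ∨ (g : Matrix (Fin 2) (Fin 2) k) = !![1, lam; 0, 1]}))
    rw [Subgroup.orderOf_mk] at hw
    have hw2 : w ^ 2 = 1 := orderOf_dvd_iff_pow_eq_one.1 (by rw [hw])
    have hw1 : w ≠ 1 := by
      rintro rfl
      rw [orderOf_one] at hw
      omega
    have h1 := hle hwc
    rw [Subgroup.mem_comap, hng w (H262.Tv.involution_eq h2k hw2 hw1)] at h1
    exact h1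

/-- a nontrivial `2`-group generated by odd order elements has no cyclic Sylow `2`-subgroup -/
theorem not_isCyclic_sylow {K : Type*} [Group K] [Finite K] [Fact (Nat.Prime 2)] {S : Set K}
    (hS : Subgroup.closure S = ⊤)
    (hodd : ∀ s ∈ S, Odd (orderOf s)) (h2 : 2 ∣ Nat.card K) (D : Sylow 2 K) : ¬ IsCyclic D := by
  intro hc
  have hp : (Nat.card K).minFac = 2 := (Nat.minFac_eq_two_iff _).2 h2
  have hcomp := hc.isComplement' hp
  have hker : (MonoidHom.transferSylow D (hc.normalizer_le_centralizer hp)).ker = ⊤ := by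
    rw [eq_top_iff, ← hS, Subgroup.closure_le]
    intro s hs
    rw [SetLike.mem_coe, MonoidHom.mem_ker]
    set f := MonoidHom.transferSylow D (hc.normalizer_le_centralizer hp)
    have h1 : orderOf (f s) ∣ orderOf s := orderOf_map_dvd f s
    obtain ⟨k, hk⟩ := (IsPGroup.iff_orderOf.1 D.isPGroup') (f s)
    have h3 : Odd (orderOf (f s)) := Odd.of_dvd_nat (hodd s hs) h1
    rw [hk] at h3
    have h4 : k = 0 := by
      by_contra hk0
      exact (Nat.not_even_iff_odd.2 h3) ((Nat.even_pow' hk0).2 even_two)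
    rw [h4, pow_zero] at hk
    exact orderOf_eq_one_iff.1 hk
  rw [hker, Subgroup.isComplement'_top_left] at hcomp
  have h5 := D.dvd_card_of_dvd_card h2
  have h6 : Nat.card D = 1 := by
    rw [← Subgroup.card_bot (G := K), ← hcomp]
  rw [h6] at h5
  omega

theorem exists_e1 {w : Fin 2 → F} (hw : w ≠ 0) : ∃ g : SL2 F, g.1 0 0 = w 0 ∧ g.1 1 0 = w 1 := by
  by_cases h0 : w 0 = 0
  · have h1 : w 1 ≠ 0 := by
      intro h1
      apply hw
      ext i
      fin_cases i
      · exact h0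
      · exact h1
    refine ⟨⟨!![0, -(w 1)⁻¹; w 1, 0], ?_⟩, h0.symm, rfl⟩
    rw [Matrix.det_fin_two_of]
    field_simp
    ring
  · refine ⟨⟨!![w 0, 0; w 1, (w 0)⁻¹], ?_⟩, rfl, rfl⟩
    rw [Matrix.det_fin_two_of]
    field_simp
    ring

theorem inv_00 (A : SL2 F) : A⁻¹.1 0 0 = A.1 1 1 := by
  rw [Matrix.SpecialLinearGroup.coe_inv, Matrix.adjugate_fin_two]; rfl
theorem inv_01 (A : SL2 F) : A⁻¹.1 0 1 = -A.1 0 1 := by
  rw [Matrix.SpecialLinearGroup.coe_inv, Matrix.adjugate_fin_two]; rfl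
theorem inv_10 (A : SL2 F) : A⁻¹.1 1 0 = -A.1 1 0 := by
  rw [Matrix.SpecialLinearGroup.coe_inv, Matrix.adjugate_fin_two]; rfl
theorem inv_11 (A : SL2 F) : A⁻¹.1 1 1 = A.1 0 0 := by
  rw [Matrix.SpecialLinearGroup.coe_inv, Matrix.adjugate_fin_two]; rfl

theorem mulVec_0 (A : SL2 F) (w : Fin 2 → F) : (A.1 *ᵥ w) 0 = A.1 0 0 * w 0 + A.1 0 1 * w 1 := by
  rw [Matrix.mulVec, dotProduct, Fin.sum_univ_two]

theorem mulVec_1 (A : SL2 F) (w : Fin 2 → F) : (A.1 *ᵥ w) 1 = A.1 1 0 * w 0 + A.1 1 1 * w 1 := by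
  rw [Matrix.mulVec, dotProduct, Fin.sum_univ_two]

/-- structure of the `p`-subgroups of `SL_2(F)` -/
theorem struct {p : ℕ} [Fact p.Prime] [CharP F p] [Finite F] {P : Subgroup (SL2 F)} (hP : IsPGroup p P) :
    ∃ g : SL2 F, ∀ y ∈ P, ∃ s, y = g * up s * g⁻¹ := by
  let _ : MulAction P (Fin 2 → F) :=
    { smul := fun y w => y.1.1 *ᵥ w
      one_smul := fun w => by
        change (1 : SL2 F).1 *ᵥ w = w
        rw [Matrix.SpecialLinearGroup.coe_one, Matrix.one_mulVec]
      mul_smul := fun x y w => by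
        change (x.1 * y.1).1 *ᵥ w = x.1.1 *ᵥ (y.1.1 *ᵥ w)
        rw [Matrix.SpecialLinearGroup.coe_mul, Matrix.mulVec_mulVec] }
  have : Fintype F := Fintype.ofFinite F
  have hdvd : p ∣ Nat.card (Fin 2 → F) := by
    obtain ⟨n, -, hn⟩ := FiniteField.card F p
    rw [Nat.card_eq_fintype_card, Fintype.card_fun, hn, Fintype.card_fin]
    exact dvd_pow (dvd_pow_self p n.pos.ne') (by norm_num)
  obtain ⟨w, hw, hw0⟩ := hP.exists_fixed_point_of_prime_dvd_card_of_fixed_point (Fin 2 → F) hdvd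
    (a := (0 : Fin 2 → F)) (fun y => Matrix.mulVec_zero _)
  obtain ⟨g, hg0, hg1⟩ := exists_e1 (fun h => hw0 h.symm)
  refine ⟨g, fun y hy => ?_⟩
  have hyw : y.1 *ᵥ w = w := hw ⟨y, hy⟩
  have h0 := congrFun hyw 0
  have h1 := congrFun hyw 1
  rw [mulVec_0, ← hg0, ← hg1] at h0
  rw [mulVec_1, ← hg0, ← hg1] at h1
  have hdet := det_eq g
  have h00 : (g⁻¹ * y * g).1 0 0 = 1 := by
    rw [mul_assoc, mul_00, mul_00, mul_10, inv_00, inv_01]
    linear_combination g.1 1 1 * h0 - g.1 0 1 * h1 + hdet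
  have h10 : (g⁻¹ * y * g).1 1 0 = 0 := by
    rw [mul_assoc, mul_10, mul_00, mul_10, inv_10, inv_11]
    linear_combination -g.1 1 0 * h0 + g.1 0 0 * h1
  have h11 : (g⁻¹ * y * g).1 1 1 = 1 := by
    have h := det_eq (g⁻¹ * y * g)
    rw [h00, h10] at h
    linear_combination h
  refine ⟨(g⁻¹ * y * g).1 0 1, ?_⟩
  have : g⁻¹ * y * g = up ((g⁻¹ * y * g).1 0 1) := by
    apply sl_ext
    · rw [h00, up_00]
    · rw [up_01]
    · rw [h10, up_10]
    · rw [h11, up_11]
  rw [← this]
  group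

/-- a `2`-group of triangular matrices of determinant one is cyclic -/
theorem isCyclic_of_tri {p : ℕ} [Fact p.Prime] [CharP F p] [Finite F] (hp2 : p ≠ 2) {D : Subgroup (SL2 F)}
    (hD : IsPGroup 2 D) {g : SL2 F} (h : ∀ d ∈ D, (g⁻¹ * d * g).1 1 0 = 0) : IsCyclic D := by
  let f : D →* F :=
    { toFun := fun d => (g⁻¹ * d.1 * g).1 0 0
      map_one' := by
        rw [OneMemClass.coe_one, mul_one, inv_mul_cancel]
        rfl
      map_mul' := fun x y => by
        have : g⁻¹ * (x * y : D).1 * g = (g⁻¹ * x.1 * g) * (g⁻¹ * y.1 * g) := by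
          rw [Subgroup.coe_mul]; group
        rw [this, mul_00, h _ y.2, mul_zero, add_zero] }
  have hinj : Function.Injective f := by
    rw [injective_iff_map_eq_one]
    intro d hd
    change (g⁻¹ * d.1 * g).1 0 0 = 1 at hd
    have h10 := h _ d.2
    have h11 : (g⁻¹ * d.1 * g).1 1 1 = 1 := by
      have h := det_eq (g⁻¹ * d.1 * g)
      rw [hd, h10] at h
      linear_combination h
    have hup : g⁻¹ * d.1 * g = up ((g⁻¹ * d.1 * g).1 0 1) := by
      apply sl_ext
      · rw [hd, up_00]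
      · rw [up_01]
      · rw [h10, up_10]
      · rw [h11, up_11]
    have h1 : (g⁻¹ * d.1 * g) ^ p = 1 := by
      rw [hup, up_pow, CharP.cast_eq_zero, zero_mul, up_zero]
    have h2 : d.1 ^ p = 1 := by
      have h3 : d.1 = g * (g⁻¹ * d.1 * g) * g⁻¹ := by group
      rw [h3, conj_pow, h1, mul_one, mul_inv_cancel]
    have h3 : d ^ p = 1 := by
      apply Subtype.ext
      rw [Subgroup.coe_pow, h2, OneMemClass.coe_one]
    obtain ⟨k, hk⟩ := (IsPGroup.iff_orderOf.1 hD) d
    have h4 : orderOf d ∣ p := orderOf_dvd_of_pow_eq_one h3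
    rw [hk] at h4
    have h5 : k = 0 := by
      by_contra hk0
      have h6 : 2 ∣ p := (dvd_pow_self 2 hk0).trans h4
      exact hp2 ((Nat.prime_dvd_prime_iff_eq Nat.prime_two (Fact.out)).1 h6).symm
    rw [h5, pow_zero] at hk
    exact orderOf_eq_one_iff.1 hk
  exact isCyclic_of_injective_ringHom f hinj

/-- conjugation by `diag(1, -1)` -/
def dl : SL2 F →* SL2 F := sc (neg_ne_zero.2 one_ne_zero : (-1 : F) ≠ 0)

theorem dl_00 (A : SL2 F) : (dl A).1 0 0 = A.1 0 0 := rfl
theorem dl_01 (A : SL2 F) : (dl A).1 0 1 = -A.1 0 1 := by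
  change A.1 0 1 / (-1) = _
  rw [div_neg, div_one]
theorem dl_10 (A : SL2 F) : (dl A).1 1 0 = -A.1 1 0 := by
  change A.1 1 0 * (-1) = _
  ring
theorem dl_11 (A : SL2 F) : (dl A).1 1 1 = A.1 1 1 := rfl

theorem dl_dl (A : SL2 F) : dl (dl A) = A := by
  apply sl_ext
  · rw [dl_00, dl_00]
  · rw [dl_01, dl_01, neg_neg]
  · rw [dl_10, dl_10, neg_neg]
  · rw [dl_11, dl_11]

theorem dl_up (s : F) : dl (up s) = up (-s) := by
  apply sl_ext
  · rw [dl_00]; rfl
  · rw [dl_01]; rfl
  · rw [dl_10, up_10, neg_zero]; rfl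
  · rw [dl_11]; rfl

/-- if `h` conjugates a nontrivial upper unitriangular element to one, `h` is upper triangular -/
theorem tri_of_conj {h : SL2 F} {s s' : F} (hs : s ≠ 0) (hh : h * up s * h⁻¹ = up s') : h.1 1 0 = 0 := by
  have h1 : h * up s = up s' * h := by
    rw [← hh]; group
  have h2 := congrArg (fun A : SL2 F => A.1 1 1) h1
  simp only [mul_11, up_01, up_11, up_10] at h2
  have h3 : h.1 1 0 * s = 0 := by linear_combination h2
  exact (mul_eq_zero.1 h3).resolve_right hs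

theorem up_injective {s s' : F} (h : up s = up s') : s = s' := by
  have := congrArg (fun A : SL2 F => A.1 0 1) h
  simpa using this

/-- **parity**: a lower unitriangular element -/
theorem exists_lower [Finite F] (h2 : (2 : F) ≠ 0) {L : Subgroup (SL2 F)} (hδ : ∀ A ∈ L, dl A ∈ L) {c : F}
    (hc : c ≠ 0) (hu : up c ∈ L) {t : SL2 F} (ht : t ∈ L) {α d : F} (hd : d ≠ 0)
    (htd : t = up α * lo d * (up α)⁻¹) : ∃ d : F, d ≠ 0 ∧ lo d ∈ L := by
  classical
  obtain ⟨p, hpc⟩ := CharP.exists F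
  have hpp : p.Prime := CharP.char_is_prime F p
  have : Fact p.Prime := ⟨hpp⟩
  have : Fact (Nat.Prime 2) := ⟨Nat.prime_two⟩
  have hp2 : p ≠ 2 := by
    rintro rfl
    apply h2
    exact_mod_cast CharP.cast_eq_zero F 2
  have hpodd : Odd p := hpp.odd_of_ne_two hp2
  have hfS : Finite (SL2 F) := inferInstance
  -- the group generated by two elements
  set K : Subgroup (SL2 F) := Subgroup.closure {up c, t} with hK
  have hKL : K ≤ L := by
    rw [hK, Subgroup.closure_le]
    rintro x (rfl | rfl)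
    · exact hu
    · exact ht
  have huK : up c ∈ K := Subgroup.subset_closure (Or.inl rfl)
  have htK : t ∈ K := Subgroup.subset_closure (Or.inr rfl)
  have hngK : ng ∈ K := by
    have h1 := ng_mem h2 hc hd (L := K.comap (MulAut.conj (up α)).toMonoidHom) (by
      rw [Subgroup.mem_comap]
      change up α * up c * (up α)⁻¹ ∈ K
      rw [up_mul, add_comm, ← up_mul, mul_assoc, mul_inv_cancel, mul_one]
      exact huK) (by
      rw [Subgroup.mem_comap]
      change up α * lo d * (up α)⁻¹ ∈ K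
      rw [← htd]
      exact htK)
    rw [Subgroup.mem_comap] at h1
    change up α * ng * (up α)⁻¹ ∈ K at h1
    rwa [← ng_comm, mul_assoc, mul_inv_cancel, mul_one] at h1
  have hcardK : 2 ∣ Nat.card K := by
    have h1 : orderOf (⟨ng, hngK⟩ : K) = 2 := by
      rw [Subgroup.orderOf_mk]
      exact orderOf_eq_prime ng_sq (ng_ne_one h2)
    have h3 := orderOf_dvd_natCard (⟨ng, hngK⟩ : K)
    rwa [h1] at h3
  have hupp : ∀ s : F, (up s) ^ p = 1 := fun s => by
    rw [up_pow, CharP.cast_eq_zero, zero_mul, up_zero]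
  have hlop : ∀ s : F, (lo s) ^ p = 1 := fun s => by
    rw [lo_pow, CharP.cast_eq_zero, zero_mul, lo_zero]
  have hncyc : ∀ D : Sylow 2 K, ¬ IsCyclic D := by
    refine not_isCyclic_sylow (S := ((↑) : K → SL2 F) ⁻¹' {up c, t}) ?_ ?_ hcardK
    · exact Subgroup.closure_closure_coe_preimage
    · rintro ⟨x, hx⟩ hxs
      rw [Subgroup.orderOf_mk]
      have hxp : x ^ p = 1 := by
        rcases hxs with h | h
        · change x = up c at h
          rw [h]
          exact hupp c
        · change x = t at h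
          rw [h, htd, conj_pow, hlop, mul_one, mul_inv_cancel]
      exact Odd.of_dvd_nat hpodd (orderOf_dvd_of_pow_eq_one hxp)
  -- Sylow p-subgroups of `L`
  have hpL : p ∣ Nat.card L := by
    have h1 : orderOf (⟨up c, hu⟩ : L) = p := by
      rw [Subgroup.orderOf_mk]
      exact orderOf_eq_prime (hupp c) (fun h => hc (up_injective (by rw [h, up_zero])))
    rw [← h1]
    exact orderOf_dvd_natCard _
  have hstr : ∀ P : Sylow p L, ∃ g : SL2 F, ∀ y : L, y ∈ P → ∃ s, y.1 = g * up s * g⁻¹ := by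
    intro P
    obtain ⟨g, hg⟩ := struct (P.isPGroup'.map L.subtype)
    exact ⟨g, fun y hy => hg y.1 ⟨y, hy, rfl⟩⟩
  have hnt : ∀ P : Sylow p L, ∃ y : L, y ∈ P ∧ y ≠ 1 := by
    intro P
    have h1 : p ∣ Nat.card P := P.dvd_card_of_dvd_card hpL
    have h2 : Nontrivial P := by
      rw [← Finite.one_lt_card_iff_nontrivial]
      exact lt_of_lt_of_le hpp.one_lt (Nat.le_of_dvd Nat.card_pos h1)
    obtain ⟨y, hy⟩ := exists_ne (1 : P)
    exact ⟨y.1, y.2, fun h => hy (Subtype.ext h)⟩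
  -- even number
  have heven : Nat.card (Sylow p L) ≡ 0 [MOD 2] := by
    let D : Sylow 2 K := default
    let ι : D →* L := (Subgroup.inclusion hKL).comp D.1.subtype
    let _ : MulAction D (Sylow p L) := MulAction.compHom _ ι
    have h1 := D.isPGroup'.card_modEq_card_fixedPoints (Sylow p L)
    have h2 : Nat.card (MulAction.fixedPoints D (Sylow p L)) = 0 := by
      rw [Nat.card_eq_zero]
      left
      rw [isEmpty_subtype]
      intro P hP
      obtain ⟨g, hg⟩ := hstr P
      obtain ⟨y, hyP, hy1⟩ := hnt P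
      obtain ⟨s, hs⟩ := hg y hyP
      have hs0 : s ≠ 0 := by
        rintro rfl
        rw [up_zero, mul_one, mul_inv_cancel] at hs
        exact hy1 (Subtype.ext hs)
      have hD : IsPGroup 2 (D.1.map K.subtype) := D.isPGroup'.map _
      have hcy : IsCyclic (D.1.map K.subtype) := by
        refine isCyclic_of_tri hp2 hD (g := g) ?_
        rintro _ ⟨x, hxD, rfl⟩
        have h3 : ι ⟨x, hxD⟩ • P = P := hP ⟨x, hxD⟩
        rw [Sylow.smul_eq_iff_mem_normalizer] at h3
        have h4 := (Subgroup.mem_normalizer_iff.1 h3 y).1 hyP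
        obtain ⟨s', hs'⟩ := hg _ h4
        refine tri_of_conj hs0 (s' := s') ?_
        change x.1 * y.1 * x.1⁻¹ = _ at hs'
        rw [hs] at hs'
        have h5 : g⁻¹ * x.1 * g * up s * (g⁻¹ * x.1 * g)⁻¹ = g⁻¹ * (x.1 * (g * up s * g⁻¹) * x.1⁻¹) * g := by
          group
        change g⁻¹ * x.1 * g * up s * (g⁻¹ * x.1 * g)⁻¹ = up s'
        rw [h5, hs']
        group
      apply hncyc D
      exact isCyclic_of_surjective (D.1.equivMapOfInjective K.subtype K.subtype_injective).symm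
        (D.1.equivMapOfInjective K.subtype K.subtype_injective).symm.surjective
    rw [h2] at h1
    exact h1
  -- the automorphism
  let σ : MulAut L :=
    { toFun := fun x => ⟨dl x.1, hδ _ x.2⟩
      invFun := fun x => ⟨dl x.1, hδ _ x.2⟩
      left_inv := fun x => Subtype.ext (dl_dl x.1)
      right_inv := fun x => Subtype.ext (dl_dl x.1)
      map_mul' := fun x y => Subtype.ext (map_mul dl x.1 y.1) }
  have hσ : ∀ x : L, (σ x).1 = dl x.1 := fun x => rfl
  have hσσ : ∀ x : L, σ (σ x) = x := fun x => Subtype.ext (dl_dl x.1)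
  have hσ2 : σ * σ = 1 := by
    ext x
    change ((σ (σ x) : L) : SL2 F).1 _ _ = _
    rw [hσσ]
    rfl
  -- `P` is either unitriangular or contains lower triangular elements, when `σ`-fixed
  have hfix : ∀ P : Sylow p L, σ • P = P → (∀ y : L, y ∈ P → ∃ s, y.1 = up s) ∨ ∃ d : F, d ≠ 0 ∧ lo d ∈ L := by
    intro P hP
    obtain ⟨g, hg⟩ := hstr P
    obtain ⟨y, hyP, hy1⟩ := hnt P
    obtain ⟨s, hs⟩ := hg y hyP
    have hs0 : s ≠ 0 := by
      rintro rfl
      rw [up_zero, mul_one, mul_inv_cancel] at hs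
      exact hy1 (Subtype.ext hs)
    have h1 : σ y ∈ P := by
      have : σ • y ∈ σ • P.1 := Subgroup.smul_mem_pointwise_smul _ _ _ hyP
      have h3 : (σ • P).1 = σ • P.1 := rfl
      rw [← h3, hP] at this
      exact this
    obtain ⟨s', hs'⟩ := hg _ h1
    rw [hσ, hs, map_mul, map_mul, map_inv, dl_up] at hs'
    have h3 : (g⁻¹ * dl g) * up (-s) * (g⁻¹ * dl g)⁻¹ = up s' := by
      have : (g⁻¹ * dl g) * up (-s) * (g⁻¹ * dl g)⁻¹ = g⁻¹ * (dl g * up (-s) * (dl g)⁻¹) * g := by group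
      rw [this, hs']
      group
    have h4 := tri_of_conj (neg_ne_zero.2 hs0) h3
    rw [mul_10, inv_10, inv_11, dl_00, dl_10] at h4
    have h5 : (2 : F) * (g.1 0 0 * g.1 1 0) = 0 := by linear_combination -h4
    rcases mul_eq_zero.1 ((mul_eq_zero.1 h5).resolve_left h2) with h00 | h10
    · right
      have h6 : y.1 = lo (-(g.1 1 0) ^ 2 * s) := by
        have hdet := det_eq g
        rw [hs]
        apply sl_ext
        · rw [mul_00, mul_00, mul_01, inv_00, inv_10, h00, lo_00]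
          simp only [up_00, up_01, up_10, up_11]
          linear_combination hdet + (-g.1 1 1 ) * h00
        · rw [mul_01, mul_00, mul_01, inv_01, inv_11, h00, lo_01]
          simp only [up_00, up_01, up_10, up_11]
          ring
        · rw [mul_10, mul_10, mul_11, inv_00, inv_10, lo_10]
          simp only [up_00, up_01, up_10, up_11]
          ring
        · rw [mul_11, mul_10, mul_11, inv_01, inv_11, h00, lo_11]
          simp only [up_00, up_01, up_10, up_11]
          linear_combination hdet + (-g.1 1 1 ) * h00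
      refine ⟨-(g.1 1 0) ^ 2 * s, ?_, h6 ▸ y.2⟩
      have h10 : g.1 1 0 ≠ 0 := by
        intro h
        have hdet := det_eq g
        rw [h00, h] at hdet
        simp at hdet
      exact mul_ne_zero (neg_ne_zero.2 (pow_ne_zero 2 h10)) hs0
    · left
      intro z hz
      obtain ⟨r, hr⟩ := hg z hz
      have hdet := det_eq g
      refine ⟨(g.1 0 0) ^ 2 * r, ?_⟩
      rw [hr]
      apply sl_ext
      · rw [mul_00, mul_00, mul_01, inv_00, inv_10, h10, up_00]
        simp only [up_00, up_01, up_10, up_11]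
        linear_combination hdet + (g.1 0 1 ) * h10
      · rw [mul_01, mul_00, mul_01, inv_01, inv_11, up_01]
        simp only [up_00, up_01, up_10, up_11]
        ring
      · rw [mul_10, mul_10, mul_11, inv_00, inv_10, h10, up_10]
        simp only [up_00, up_01, up_10, up_11]
        ring
      · rw [mul_11, mul_10, mul_11, inv_01, inv_11, h10, up_11]
        simp only [up_00, up_01, up_10, up_11]
        linear_combination hdet + (g.1 0 1 ) * h10
  by_contra hcon
  have hfix' : ∀ P : Sylow p L, σ • P = P → ∀ y : L, y ∈ P → ∃ s, y.1 = up s :=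
    fun P hP => (hfix P hP).resolve_right hcon
  -- the Sylow subgroup of upper unitriangular elements
  let U : Subgroup L :=
    { carrier := {y | ∃ s, y.1 = up s}
      one_mem' := ⟨0, by rw [up_zero]; rfl⟩
      mul_mem' := by
        rintro x y ⟨a, ha⟩ ⟨b, hb⟩
        exact ⟨a + b, by rw [Subgroup.coe_mul, ha, hb, up_mul]⟩
      inv_mem' := by
        rintro x ⟨a, ha⟩
        exact ⟨-a, by rw [Subgroup.coe_inv, ha, up_inv]⟩ }
  have hU : IsPGroup p U := by
    rintro ⟨y, a, ha⟩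
    refine ⟨1, ?_⟩
    apply Subtype.ext
    apply Subtype.ext
    change y.1 ^ p ^ 1 = 1
    rw [pow_one, ha, hupp]
  obtain ⟨P₁, hP₁⟩ := hU.exists_le_sylow
  have hle : ∀ P : Sylow p L, (∀ y : L, y ∈ P → ∃ s, y.1 = up s) → P = P₁ := by
    intro P hP
    have h1 : P.1 ≤ P₁.1 := le_trans (fun y hy => hP y hy) hP₁
    exact Sylow.ext (P.is_maximal' P₁.isPGroup' h1).symm
  have hP₁U : ∀ y : L, y ∈ P₁ → ∃ s, y.1 = up s := by
    intro y hy
    obtain ⟨g, hg⟩ := hstr P₁
    obtain ⟨s, hs⟩ := hg ⟨up c, hu⟩ (hP₁ ⟨c, rfl⟩)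
    have h3 := tri_of_conj (h := g⁻¹) hc (s' := s) (by
      change up c = _ at hs
      rw [hs]; group)
    rw [inv_10, neg_eq_zero] at h3
    obtain ⟨r, hr⟩ := hg y hy
    have hdet := det_eq g
    refine ⟨(g.1 0 0) ^ 2 * r, ?_⟩
    rw [hr]
    apply sl_ext
    · rw [mul_00, mul_00, mul_01, inv_00, inv_10, h3, up_00]
      simp only [up_00, up_01, up_10, up_11]
      linear_combination hdet + (g.1 0 1 ) * h3
    · rw [mul_01, mul_00, mul_01, inv_01, inv_11, up_01]
      simp only [up_00, up_01, up_10, up_11]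
      ring
    · rw [mul_10, mul_10, mul_11, inv_00, inv_10, h3, up_10]
      simp only [up_00, up_01, up_10, up_11]
      ring
    · rw [mul_11, mul_10, mul_11, inv_01, inv_11, h3, up_11]
      simp only [up_00, up_01, up_10, up_11]
      linear_combination hdet + (g.1 0 1 ) * h3
  have hσP₁ : σ • P₁ = P₁ := by
    refine hle _ ?_
    intro y hy
    have h3 : y ∈ σ • P₁.1 := hy
    obtain ⟨x, hx, rfl⟩ := (Subgroup.mem_smul_pointwise_iff_exists _ _ _).1 h3
    obtain ⟨s, hs⟩ := hP₁U x hx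
    refine ⟨-s, ?_⟩
    change dl x.1 = _
    rw [hs, dl_up]
  have hZ : IsPGroup 2 (Subgroup.zpowers σ) := by
    rintro ⟨x, hx⟩
    obtain ⟨k, rfl⟩ := Subgroup.mem_zpowers_iff.1 hx
    refine ⟨1, Subtype.ext ?_⟩
    change (σ ^ k) ^ 2 ^ 1 = 1
    rw [pow_one, ← zpow_natCast, ← _root_.zpow_mul, mul_comm, _root_.zpow_mul]
    have : σ ^ ((2 : ℕ) : ℤ) = 1 := by
      rw [zpow_natCast, pow_two, hσ2]
    rw [this, _root_.one_zpow]
  have h3 := hZ.card_modEq_card_fixedPoints (Sylow p L)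
  have h4 : Nat.card (MulAction.fixedPoints (Subgroup.zpowers σ) (Sylow p L)) = 1 := by
    rw [Nat.card_eq_one_iff_unique]
    refine ⟨⟨?_⟩, ⟨⟨P₁, ?_⟩⟩⟩
    · rintro ⟨P, hP⟩ ⟨P', hP'⟩
      apply Subtype.ext
      change P = P'
      rw [hle P (hfix' P (hP ⟨σ, Subgroup.mem_zpowers σ⟩)), hle P' (hfix' P' (hP' ⟨σ, Subgroup.mem_zpowers σ⟩))]
    · rintro ⟨x, hx⟩
      obtain ⟨k, rfl⟩ := Subgroup.mem_zpowers_iff.1 hx
      change σ ^ k • P₁ = P₁
      have h5 : σ ∈ MulAction.stabilizer (MulAut L) P₁ := hσP₁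
      exact Subgroup.zpow_mem _ h5 k
  rw [h4] at h3
  have h5 := heven.symm.trans h3
  exact absurd h5 (by decide)

end Cfsg.Agent.H67.Odm
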