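import Cfsg.Agent.H67.OdmEdge
import Cfsg.Agent.H262.ElSympRes
import Cfsg.Agent.H304.PslTransfer
import Cfsg.Agent.H453.OddM.Tools
import Cfsg.Agent.H918.Transv
import Cfsg.Agent.H922.OddPerp
import Cfsg.Agent.LieClassical.SLGen

/-!
# The residual class of `PSL_n(q)`, `q` odd, `n = 3` or `n ≥ 5` (TEAM ODDM, S4785, helper67)
-/

set_option autoImplicit false
set_option linter.unusedSectionVars false
set_option linter.unusedVariables false

namespace Cfsg.Agent.H67.Odm

open Matrix Cfsg.Geo Cfsg.Agent.H453.OddM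

universe u

section abs

variable {ι : Type} [Fintype ι] [DecidableEq ι] {F : Type u} [Field F]

/-- conjugate subgroup -/
def cj (H : Subgroup (GL ι F)) (y : GL ι F) : Subgroup (GL ι F) := H.comap (MulAut.conj y).toMonoidHom

theorem mem_cj {H : Subgroup (GL ι F)} {y x : GL ι F} : x ∈ cj H y ↔ y * x * y⁻¹ ∈ H := Iff.rfl

/-- the transvections of `H` -/
def Tset (H : Subgroup (GL ι F)) : Set (GL ι F) :=
  {g | g ∈ H ∧ ∃ a φ : ι → F, φ ⬝ᵥ a = 0 ∧ g.1 = 1 + Matrix.vecMulVec a φ}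

theorem conj_vmv (y : GL ι F) (a φ : ι → F) : y.1 * (1 + Matrix.vecMulVec a φ) * (y⁻¹ : GL ι F).1 =
    1 + Matrix.vecMulVec (y.1 *ᵥ a) (φ ᵥ* (y⁻¹ : GL ι F).1) := by
  rw [mul_add, add_mul, mul_one, ← Units.val_mul, mul_inv_cancel, Units.val_one, Matrix.mul_vecMulVec,
    Matrix.vecMulVec_mul]

theorem conj_dot (y : GL ι F) (a φ : ι → F) : (φ ᵥ* (y⁻¹ : GL ι F).1) ⬝ᵥ (y.1 *ᵥ a) = φ ⬝ᵥ a := by
  rw [← Matrix.dotProduct_mulVec, Matrix.mulVec_mulVec, ← Units.val_mul, inv_mul_cancel, Units.val_one,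
    Matrix.one_mulVec]

theorem Tset_conj {H : Subgroup (GL ι F)} {g h : GL ι F} (hh : h ∈ H) (hg : g ∈ Tset H) : h * g * h⁻¹ ∈ Tset H := by
  obtain ⟨hgH, a, φ, h0, hga⟩ := hg
  refine ⟨H.mul_mem (H.mul_mem hh hgH) (H.inv_mem hh), h.1 *ᵥ a, φ ᵥ* (h⁻¹ : GL ι F).1, ?_, ?_⟩
  · rw [conj_dot, h0]
  · rw [Units.val_mul, Units.val_mul, hga, conj_vmv]

theorem closure_conj {H : Subgroup (GL ι F)} : ∀ h ∈ H, ∀ n ∈ Subgroup.closure (Tset H),
    h * n * h⁻¹ ∈ Subgroup.closure (Tset H) := by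
  intro h hh n hn
  induction hn using Subgroup.closure_induction with
  | mem t ht => exact Subgroup.subset_closure (Tset_conj hh ht)
  | one => simp
  | mul x y _ _ hx hy =>
    have : h * (x * y) * h⁻¹ = (h * x * h⁻¹) * (h * y * h⁻¹) := by group
    rw [this]
    exact (Subgroup.closure (Tset H)).mul_mem hx hy
  | inv x _ hx =>
    have : h * x⁻¹ * h⁻¹ = (h * x * h⁻¹)⁻¹ := by group
    rw [this]
    exact (Subgroup.closure (Tset H)).inv_mem hx

theorem closure_le_self {H : Subgroup (GL ι F)} : Subgroup.closure (Tset H) ≤ H := by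
  rw [Subgroup.closure_le]
  exact fun t ht => ht.1

/-- pulling a transvection of `H` back to `cj H y` -/
theorem tr_cj {H : Subgroup (GL ι F)} {y g : GL ι F} (hg : g ∈ H) {a φ : ι → F} (h0 : φ ⬝ᵥ a = 0)
    (hga : g.1 = 1 + Matrix.vecMulVec a φ) :
    Tr (cj H y) ((y⁻¹ : GL ι F).1 *ᵥ a) (φ ᵥ* y.1) := by
  have h1 := conj_dot y⁻¹ a φ
  have h2 := conj_vmv y⁻¹ a φ
  rw [inv_inv] at h1 h2
  refine ⟨by rw [h1, h0], y⁻¹ * g * y, ?_, ?_⟩
  · rw [mem_cj]
    have : y * (y⁻¹ * g * y) * y⁻¹ = g := by group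
    rwa [this]
  · rw [Units.val_mul, Units.val_mul, hga, h2]

theorem core_le [Finite F] {H P : Subgroup (GL ι F)} (hP : IsResidualCore H P) {y : GL ι F} {i j : ι}
    (h : Ed (cj H y) i j) : P ≤ Subgroup.closure (Tset H) := by
  obtain ⟨hij, c, hc, x, hx, hxc⟩ := h
  refine H262.El.core_le_of_normal hP closure_le_self closure_conj (fun hle => ?_)
  have h1 : y * x * y⁻¹ ∈ Tset H := by
    refine ⟨hx, y.1 *ᵥ (c • (Pi.single i 1 : ι → F)), (Pi.single j 1 : ι → F) ᵥ* (y⁻¹ : GL ι F).1, ?_, ?_⟩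
    · rw [conj_dot, single_dotProduct, one_mul, Pi.smul_apply, Pi.single_eq_of_ne hij.symm, smul_zero]
    · rw [Units.val_mul, Units.val_mul, hxc, transvection_eq, conj_vmv]
  have h2 := hle (Subgroup.subset_closure h1)
  rw [mem_scalars_iff] at h2
  obtain ⟨s, hs⟩ := h2
  have h3 : x.1 = (s : F) • (1 : Matrix ι ι F) := by
    have h4 : x = y⁻¹ * (y * x * y⁻¹) * y := by group
    rw [h4, Units.val_mul, Units.val_mul, hs, Matrix.mul_smul, Matrix.mul_one, Matrix.smul_mul, ← Units.val_mul,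
      inv_mul_cancel]
    rfl
  have h5 := congrFun (congrFun h3 i) j
  rw [hxc, Matrix.transvection, Matrix.add_apply, Matrix.one_apply_ne hij, Matrix.single_apply_same,
    Matrix.smul_apply, Matrix.one_apply_ne hij, smul_zero, zero_add] at h5
  exact hc h5

theorem irr_cj [Finite F] {H P : Subgroup (GL ι F)} (hP : IsResidualCore H P) {y : GL ι F} {i j : ι}
    (h : Ed (cj H y) i j) : Irr (cj H y) := by
  intro W hW hW'
  by_contra hcon
  push Not at hcon
  set W' : Submodule F (ι → F) := W.map (Matrix.toLin' y.1) with hWd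
  have hyy : ∀ v, y.1 *ᵥ ((y⁻¹ : GL ι F).1 *ᵥ v) = v := fun v => by
    rw [Matrix.mulVec_mulVec, ← Units.val_mul, mul_inv_cancel, Units.val_one, Matrix.one_mulVec]
  have hyy' : ∀ v, (y⁻¹ : GL ι F).1 *ᵥ (y.1 *ᵥ v) = v := fun v => by
    rw [Matrix.mulVec_mulVec, ← Units.val_mul, inv_mul_cancel, Units.val_one, Matrix.one_mulVec]
  have hle : Subgroup.closure (Tset H) ≤ subspaceStabilizer W' := by
    rw [Subgroup.closure_le]
    rintro g ⟨hg, a, φ, h0, hga⟩
    refine Cfsg.Agent.H922.mem_subspaceStabilizer_of_forall ?_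
    rintro _ ⟨w, hw, rfl⟩
    rw [Matrix.toLin'_apply, hga, Matrix.add_mulVec, Matrix.one_mulVec]
    refine W'.add_mem ⟨w, hw, Matrix.toLin'_apply _ _⟩ ?_
    have h1 := hcon _ _ (tr_cj (y := y) hg h0 hga) w hw
    refine ⟨_, h1, ?_⟩
    rw [Matrix.toLin'_apply, Matrix.mulVec_smul, hyy, ← Matrix.dotProduct_mulVec]
    ext r
    rw [Pi.smul_apply, smul_eq_mul, Matrix.mulVec, dotProduct, mul_comm, dotProduct, Finset.mul_sum]
    refine Finset.sum_congr rfl fun s _ => ?_
    rw [Matrix.vecMulVec_apply]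
    ring
  have hirr := hP.absIrred.1
  refine H918.not_le_subspaceStabilizer hirr (W := W') ?_ ?_ ((core_le hP h).trans hle)
  · intro h0
    apply hW
    rw [Submodule.eq_bot_iff] at h0 ⊢
    intro w hw
    have h1 := h0 _ ⟨w, hw, Matrix.toLin'_apply _ _⟩
    have h2 := hyy' w
    rw [h1, Matrix.mulVec_zero] at h2
    exact h2.symm
  · intro h0
    apply hW'
    rw [eq_top_iff]
    intro v _
    have h1 : y.1 *ᵥ v ∈ W' := by rw [h0]; trivial
    obtain ⟨w, hw, hwv⟩ := h1
    rw [Matrix.toLin'_apply] at hwv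
    have h2 := hyy' w
    rw [hwv, hyy'] at h2
    rwa [h2]

/-- the conclusion on fields -/
def Fields (H : Subgroup (GL ι F)) : Prop :=
  (∀ i j : ι, i ≠ j → ∀ c : F, Mm H (Matrix.transvection i j c)) ∨ ∃ k : Subfield F, k ≠ ⊤ ∧ ∃ d : ι → F,
    (∀ i, d i ≠ 0) ∧ ∀ a φ : ι → F, φ ⬝ᵥ a = 0 → Mm H (1 + Matrix.vecMulVec a φ) →
      ∀ r s, (d r)⁻¹ * a r * φ s * d s ∈ k

theorem all_of_core [Finite F] {H P : Subgroup (GL ι F)} (hP : IsResidualCore H P) {y : GL ι F} {i j : ι}
    (h : Ed (cj H y) i j) (hF : Fields (cj H y)) (r s : ι) (hrs : r ≠ s) (c : F) :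
    Mm (cj H y) (Matrix.transvection r s c) := by
  rcases hF with hF | ⟨k, hk, d, hd, hF⟩
  · exact hF r s hrs c
  exfalso
  -- the diagonal matrix
  let D : GL ι F := ⟨Matrix.diagonal fun i => (d i)⁻¹, Matrix.diagonal d, by
    rw [Matrix.diagonal_mul_diagonal, ← Matrix.diagonal_one]
    congr 1
    ext i
    exact inv_mul_cancel₀ (hd i), by
    rw [Matrix.diagonal_mul_diagonal, ← Matrix.diagonal_one]
    congr 1
    ext i
    exact mul_inv_cancel₀ (hd i)⟩
  have hDv : D.1 = Matrix.diagonal fun i => (d i)⁻¹ := rfl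
  have hDi : (D⁻¹ : GL ι F).1 = Matrix.diagonal d := rfl
  refine hP.no_subfield k hk ⟨D * y⁻¹, ?_⟩
  -- matrices over `k`
  let K : Set (GL ι F) := {g | ∀ i j, (((D * y⁻¹) * g * (D * y⁻¹)⁻¹ : GL ι F).1) i j ∈ k}
  have hK1 : (1 : GL ι F) ∈ K := by
    intro i j
    rw [mul_one, mul_inv_cancel, Units.val_one, Matrix.one_apply]
    split_ifs
    · exact k.one_mem
    · exact k.zero_mem
  have hKm : ∀ g g' : GL ι F, g ∈ K → g' ∈ K → g * g' ∈ K := by
    intro g g' hg hg' i j
    have : (D * y⁻¹) * (g * g') * (D * y⁻¹)⁻¹ = ((D * y⁻¹) * g * (D * y⁻¹)⁻¹) * ((D * y⁻¹) * g' * (D * y⁻¹)⁻¹) := by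
      group
    rw [this, Units.val_mul, Matrix.mul_apply]
    exact k.sum_mem fun l _ => k.mul_mem (hg i l) (hg' l j)
  have hfin : Finite (GL ι F) := inferInstance
  have hcl : ∀ g ∈ Subgroup.closure (Tset H), g ∈ K := by
    intro g hg
    induction hg using Subgroup.closure_induction with
    | mem t ht =>
      obtain ⟨htH, a, φ, h0, hta⟩ := ht
      intro i j
      have h1 := tr_cj (y := y) htH h0 hta
      have h2 : (D * y⁻¹) * t * (D * y⁻¹)⁻¹ = D * (y⁻¹ * t * y) * D⁻¹ := by group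
      have h3 := conj_vmv y⁻¹ a φ
      rw [inv_inv] at h3
      rw [h2, Units.val_mul, Units.val_mul, Units.val_mul, Units.val_mul, hta, h3, hDv, hDi, Matrix.mul_diagonal,
        Matrix.diagonal_mul, Matrix.add_apply, Matrix.vecMulVec_apply]
      have h4 := hF _ _ h1.1 h1.2 i j
      have h5 : (d i)⁻¹ * (1 : Matrix ι ι F) i j * d j ∈ k := by
        rw [Matrix.one_apply]
        split_ifs with hij
        · rw [hij, mul_one, inv_mul_cancel₀ (hd j)]
          exact k.one_mem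
        · rw [mul_zero, zero_mul]
          exact k.zero_mem
      have h6 := k.add_mem h5 h4
      have h7 : (d i)⁻¹ * (1 : Matrix ι ι F) i j * d j +
          (d i)⁻¹ * ((y⁻¹ : GL ι F).1 *ᵥ a) i * (φ ᵥ* y.1) j * d j =
          (d i)⁻¹ * ((1 : Matrix ι ι F) i j + ((y⁻¹ : GL ι F).1 *ᵥ a) i * (φ ᵥ* y.1) j) * d j := by ring
      rwa [h7] at h6
    | one => exact hK1
    | mul x z _ _ hx hz => exact hKm _ _ hx hz
    | inv x _ hx =>
      have hpow : ∀ n : ℕ, x ^ n ∈ K := by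
        intro n
        induction n with
        | zero => rw [pow_zero]; exact hK1
        | succ n ih => rw [pow_succ]; exact hKm _ _ ih hx
      have h1 : x⁻¹ = x ^ (orderOf x - 1) := by
        symm
        apply eq_inv_of_mul_eq_one_left
        rw [← pow_succ, Nat.sub_add_cancel (orderOf_pos x), pow_orderOf_eq_one]
      rw [h1]
      exact hpow _
  rintro _ ⟨x, hx, rfl⟩ i j
  have := hcl x (core_le hP h hx) i j
  rw [Units.val_mul, Units.val_mul] at this
  exact this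

end abs

section psl

open Cfsg.Agent.H304.PslT

variable {n : ℕ} {F : Type u} [Field F]

theorem det_sgm {i j : Fin n} (h : i ≠ j) : (sgm (F := F) i j).det = 1 := by
  classical
  rw [sgm, Matrix.det_diagonal]
  unfold sgv
  rw [Finset.prod_ite]
  have h1 : (Finset.univ.filter fun l => l = i ∨ l = j) = {i, j} := by
    ext l; simp
  rw [h1, Finset.prod_const, Finset.prod_const_one, Finset.card_pair h]
  ring

/-- the diagonal sign matrices of determinant one -/
def Esub (n : ℕ) (F : Type u) [Field F] : Subgroup (Matrix.SpecialLinearGroup (Fin n) F) where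
  carrier := {g | ∃ ε : Fin n → F, (∀ i, ε i = 1 ∨ ε i = -1) ∧ g.1 = Matrix.diagonal ε}
  one_mem' := ⟨fun _ => 1, fun _ => Or.inl rfl, by
    rw [Matrix.SpecialLinearGroup.coe_one]
    exact Matrix.diagonal_one.symm⟩
  mul_mem' := by
    rintro x y ⟨ε, hε, hx⟩ ⟨δ, hδ, hy⟩
    refine ⟨fun i => ε i * δ i, fun i => ?_, ?_⟩
    · change ε i * δ i = 1 ∨ ε i * δ i = -1
      rcases hε i with h | h <;> rcases hδ i with h' | h' <;> rw [h, h'] <;> simp
    · rw [Matrix.SpecialLinearGroup.coe_mul, hx, hy, Matrix.diagonal_mul_diagonal]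
  inv_mem' := by
    rintro x ⟨ε, hε, hx⟩
    refine ⟨ε, hε, ?_⟩
    have h1 : x * x = 1 := by
      apply Subtype.ext
      rw [Matrix.SpecialLinearGroup.coe_mul, hx, Matrix.diagonal_mul_diagonal, Matrix.SpecialLinearGroup.coe_one,
        ← Matrix.diagonal_one]
      congr 1
      ext i
      rcases hε i with h | h <;> rw [h] <;> simp
    rw [inv_eq_of_mul_eq_one_left h1, hx]

theorem Esub_sq {x : Matrix.SpecialLinearGroup (Fin n) F} (hx : x ∈ Esub n F) : x * x = 1 := by
  obtain ⟨ε, hε, hx⟩ := hx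
  apply Subtype.ext
  rw [Matrix.SpecialLinearGroup.coe_mul, hx, Matrix.diagonal_mul_diagonal, Matrix.SpecialLinearGroup.coe_one,
    ← Matrix.diagonal_one]
  congr 1
  ext i
  rcases hε i with h | h <;> rw [h] <;> simp

theorem Esub_two : IsPGroup 2 (Esub n F) := by
  rintro ⟨x, hx⟩
  refine ⟨1, Subtype.ext ?_⟩
  change x ^ 2 ^ 1 = 1
  rw [pow_one, pow_two, Esub_sq hx]

/-- conjugating a transvection by a sign matrix -/
theorem Esub_conj {x : Matrix.SpecialLinearGroup (Fin n) F} (hx : x ∈ Esub n F) {i j : Fin n} (hij : i ≠ j) (c : F) :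
    x * Matrix.SpecialLinearGroup.transvection hij c * x⁻¹ = Matrix.SpecialLinearGroup.transvection hij c ∨
    x * Matrix.SpecialLinearGroup.transvection hij c * x⁻¹ =
      (Matrix.SpecialLinearGroup.transvection hij c)⁻¹ := by
  have hinv : x⁻¹ = x := inv_eq_of_mul_eq_one_left (Esub_sq hx)
  obtain ⟨ε, hε, hx⟩ := hx
  have h1 : (x * Matrix.SpecialLinearGroup.transvection hij c * x⁻¹).1 =
      Matrix.transvection i j (ε i * ε j * c) := by
    rw [hinv, Matrix.SpecialLinearGroup.coe_mul, Matrix.SpecialLinearGroup.coe_mul, hx]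
    ext r s
    rw [Matrix.mul_diagonal, Matrix.diagonal_mul]
    change ε r * (Matrix.transvection i j c) r s * ε s = _
    rw [Matrix.transvection, Matrix.transvection, Matrix.add_apply, Matrix.add_apply, Matrix.single_apply,
      Matrix.single_apply, Matrix.one_apply]
    split_ifs with h1 h2 h3
    · exact absurd (h2.1.trans (h1.trans h2.2.symm)) hij
    · subst h1
      rcases hε r with h | h <;> rw [h] <;> ring
    · rw [h3.1, h3.2]; ring
    · ring
  have h3 : ε i * ε j = 1 ∨ ε i * ε j = -1 := by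
    rcases hε i with h | h <;> rcases hε j with h' | h' <;> rw [h, h'] <;> simp
  rcases h3 with h3 | h3
  · left
    apply Subtype.ext
    rw [h1, h3, one_mul]
    rfl
  · right
    rw [Matrix.SpecialLinearGroup.transvection_inv]
    apply Subtype.ext
    rw [h1, h3, neg_one_mul]
    rfl

/-- **The residual class of `PSL_n(q)`, `q` odd, `n = 3` or `n ≥ 5`.** -/
theorem no_res_of [Finite F] (h2 : (2 : F) ≠ 0) (hn : n = 3 ∨ 5 ≤ n)
    (hfields : ∀ H : Subgroup (GL (Fin n) F), HasE H →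
      (∀ i j : Fin n, i ≠ j → ∃ c : F, c ≠ 0 ∧ Mm H (Matrix.transvection i j c)) → Fields H)
    {R M : Subgroup (Matrix.ProjectiveSpecialLinearGroup (Fin n) F)} (hR : RO _ R) (hRM : R ≤ M) (hM : M ≠ ⊤)
    {P : Subgroup (GL (Fin n) F)} (hP : IsResidualCore (pre M) P) : False := by
  have hfinT : Finite (Matrix.ProjectiveSpecialLinearGroup (Fin n) F) := Quotient.finite _
  let i0 : Fin n := ⟨0, by omega⟩
  let i1 : Fin n := ⟨1, by omega⟩
  let i2 : Fin n := ⟨2, by omega⟩
  have h01 : i0 ≠ i1 := by simp [i0, i1]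
  have h02 : i0 ≠ i2 := by simp [i0, i2]
  have h12 : i1 ≠ i2 := by simp [i1, i2]
  set t : Matrix.SpecialLinearGroup (Fin n) F := Matrix.SpecialLinearGroup.transvection h01 1 with ht
  -- real
  let d : Matrix.SpecialLinearGroup (Fin n) F := ⟨sgm i0 i2, det_sgm h02⟩
  have hdE : d ∈ Esub n F := ⟨sgv i0 i2, fun i => by
    unfold sgv
    split_ifs
    · exact Or.inr rfl
    · exact Or.inl rfl, rfl⟩
  have hreal : IsReal t := by
    refine ⟨d, ?_⟩
    have hinv : d⁻¹ = d := inv_eq_of_mul_eq_one_left (Esub_sq hdE)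
    rw [hinv, ht, Matrix.SpecialLinearGroup.transvection_inv]
    apply Subtype.ext
    rw [Matrix.SpecialLinearGroup.coe_mul, Matrix.SpecialLinearGroup.coe_mul]
    ext r s
    change (sgm (F := F) i0 i2 * Matrix.transvection i0 i1 (1 : F) * sgm (F := F) i0 i2) r s =
      (Matrix.transvection i0 i1 (-1)) r s
    rw [sgm_conj, Matrix.transvection, Matrix.transvection, Matrix.add_apply, Matrix.add_apply, Matrix.single_apply,
      Matrix.single_apply, Matrix.one_apply]
    split_ifs with h1 h3 h3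
    · exact absurd (h3.1.trans (h1.trans h3.2.symm)) h01
    · subst h1
      rw [add_zero, mul_one, sgv_sq]
    · rw [← h3.1, ← h3.2, sgv_l, sgv_n (Ne.symm h01) h12]; ring
    · ring
  have hxreal : IsReal (pr n F t) := hreal.map (pr n F)
  obtain ⟨g, hgx, hgQ⟩ := hR.exists_conj_two hxreal (Q := (Esub n F).map (pr n F)) (Esub_two.map (pr n F)) (by
    rintro _ ⟨e, he, rfl⟩
    rw [← map_mul, ← map_inv, ← map_mul]
    rcases Esub_conj he h01 1 with h | h
    · rw [h]
      exact Subgroup.mem_zpowers _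
    · rw [h, map_inv]
      exact Subgroup.inv_mem _ (Subgroup.mem_zpowers _))
  obtain ⟨h, rfl⟩ := QuotientGroup.mk'_surjective _ g
  set y : GL (Fin n) F := Matrix.SpecialLinearGroup.toGL h with hy
  have hmem : ∀ z : Matrix.SpecialLinearGroup (Fin n) F, pr n F h * pr n F z * (pr n F h)⁻¹ ∈ R →
      Mm (cj (pre M) y) z.1 := by
    intro z hz
    refine ⟨Matrix.SpecialLinearGroup.toGL z, ?_, rfl⟩
    rw [mem_cj]
    refine ⟨h * z * h⁻¹, ?_, ?_⟩
    · change pr n F (h * z * h⁻¹) ∈ M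
      rw [map_mul, map_mul, map_inv]
      exact hRM hz
    · rw [map_mul, map_mul, map_inv]
  have hE : HasE (cj (pre M) y) := fun i j hij =>
    hmem ⟨sgm i j, det_sgm hij⟩ (hgQ _ ⟨_, ⟨sgv i j, fun l => by
      unfold sgv
      split_ifs
      · exact Or.inr rfl
      · exact Or.inl rfl, rfl⟩, rfl⟩)
  have hEd : Ed (cj (pre M) y) i0 i1 := ⟨h01, 1, one_ne_zero, hmem t hgx⟩
  have hcard : Fintype.card (Fin n) = 3 ∨ 5 ≤ Fintype.card (Fin n) := by rwa [Fintype.card_fin]
  have hall' := all_of_core hP hEd (hfields _ hE (hall h2 hE hcard (irr_cj hP hEd) hEd))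
  -- so `M = ⊤`
  apply hM
  have htop : (M.comap (pr n F)).comap (MulAut.conj h).toMonoidHom = ⊤ := by
    rw [eq_top_iff, ← LieClassical.SLGen.closure_transvections, Subgroup.closure_le]
    rintro _ ⟨i, j, hij, c, rfl⟩
    obtain ⟨z, hz, hzv⟩ := hall' i j hij c
    rw [mem_cj] at hz
    obtain ⟨s, hs, hsz⟩ := hz
    have : s = h * Matrix.SpecialLinearGroup.transvection hij c * h⁻¹ := by
      apply toGL_injective
      rw [hsz, map_mul, map_mul, map_inv]
      congr 2
      exact Units.ext hzv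
    rw [SetLike.mem_coe, Subgroup.mem_comap]
    change h * Matrix.SpecialLinearGroup.transvection hij c * h⁻¹ ∈ M.comap (pr n F)
    rw [← this]
    exact hs
  rw [eq_top_iff]
  intro w _
  obtain ⟨v, rfl⟩ := QuotientGroup.mk'_surjective _ w
  have h1 : h⁻¹ * v * h ∈ (M.comap (pr n F)).comap (MulAut.conj h).toMonoidHom := by rw [htop]; trivial
  rw [Subgroup.mem_comap] at h1
  change h * (h⁻¹ * v * h) * h⁻¹ ∈ M.comap (pr n F) at h1
  have h3 : h * (h⁻¹ * v * h) * h⁻¹ = v := by group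
  rw [h3] at h1
  exact h1

end psl

end Cfsg.Agent.H67.Odm
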